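import Cfsg.Agent.Lib.BrauerCharacters.LocalCorner

/-!
# Algebras with one simple module whose dimension is as small as the centre allows

If a symmetric algebra maps onto `n` by `n` matrices with nilpotent kernel and its dimension is
`n ^ 2` times the number of independent trace functions, then the kernel is spanned by the
multiples of its central elements.
-/

set_option autoImplicit false
set_option linter.unusedSectionVars false
set_option linter.style.haveILetI false

namespace CfsgLib.EqualDegree

open Module CfsgLib.BrauerCharacters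
open scoped Matrix

section Matrix

/-- Orthogonal nonzero idempotents in a matrix algebra are at most as many as the size, and add
up to one in case of equality. -/
theorem card_le_of_orthogonal {K : Type*} [Field K] {N : ℕ} {ι : Type*} (s : Finset ι)
    (P : ι → Matrix (Fin N) (Fin N) K) (hP : ∀ i ∈ s, P i * P i = P i)
    (h0 : ∀ i ∈ s, P i ≠ 0) (ho : ∀ i ∈ s, ∀ j ∈ s, i ≠ j → P i * P j = 0) :
    s.card ≤ N ∧ (s.card = N → ∑ i ∈ s, P i = 1) := by
  classical
  have hv : ∀ i : s, ∃ v : Fin N → K, P i *ᵥ v = v ∧ v ≠ 0 := by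
    intro i
    obtain ⟨w, hw⟩ : ∃ w, P i *ᵥ w ≠ 0 := by
      by_contra h
      push Not at h
      exact h0 i i.2 (Matrix.ext_iff_mulVec.2 fun w => by rw [h w, Matrix.zero_mulVec])
    exact ⟨P i *ᵥ w, by rw [Matrix.mulVec_mulVec, hP i i.2], hw⟩
  choose v hv hv0 using hv
  have hkill : ∀ i j : s, i ≠ j → P i *ᵥ v j = 0 := fun i j hij => by
    conv_lhs => rw [← hv j, Matrix.mulVec_mulVec,
      ho i i.2 j j.2 (fun h => hij (Subtype.ext h)), Matrix.zero_mulVec]
  have hli : LinearIndependent K v := by
    rw [Fintype.linearIndependent_iff]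
    intro c hc i
    have h := congrArg (fun x => P i *ᵥ x) hc
    simp only [Matrix.mulVec_sum, Matrix.mulVec_smul, Matrix.mulVec_zero] at h
    rw [Finset.sum_eq_single i (fun j _ hj => by rw [hkill i j (Ne.symm hj), smul_zero])
      (fun h' => absurd (Finset.mem_univ i) h'), hv i, smul_eq_zero] at h
    exact h.resolve_right (hv0 i)
  have hcard := hli.fintype_card_le_finrank
  rw [Fintype.card_coe, Module.finrank_fin_fun] at hcard
  refine ⟨hcard, fun heq => ?_⟩
  have htop : Submodule.span K (Set.range v) = ⊤ := by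
    refine Submodule.eq_top_of_finrank_eq ?_
    rw [finrank_span_eq_card hli, Fintype.card_coe, Module.finrank_fin_fun, heq]
  have hfix : (Matrix.toLin' (∑ i ∈ s, P i)) = LinearMap.id := by
    refine LinearMap.ext_on_range htop fun j => ?_
    rw [Matrix.toLin'_apply, Matrix.sum_mulVec, LinearMap.id_apply,
      ← Finset.sum_coe_sort s (fun i => P i *ᵥ v j),
      Finset.sum_eq_single j (fun i _ hi => hkill i j hi)
        (fun h' => absurd (Finset.mem_univ j) h'), hv j]
  exact Matrix.toLin'.injective (hfix.trans Matrix.toLin'_one.symm)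

end Matrix

variable {k : Type*} [Field k] {B : Type*} [Ring B] [Algebra k B] [FiniteDimensional k B] {n : ℕ}
  (π : B →ₐ[k] Matrix (Fin n) (Fin n) k)

/-- The kernel of the map onto matrices is spanned by the multiples of its central elements. -/
theorem ker_le_central_mul (hn : 0 < n) (hπ : Function.Surjective π)
    (hnil : IsNilpotent (RingHom.ker π)) {c : ℕ} (hdim : finrank k B = c * n ^ 2)
    (hc : finrank k (B ⧸ commSpan k B) = c) (ε : B →ₗ[k] k)
    (hε : ∀ x y, ε (x * y) = ε (y * x)) (hnd : ∀ x, (∀ y, ε (x * y) = 0) → x = 0)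
    {x : B} (hx : π x = 0) :
    x ∈ Submodule.span k {w | ∃ z y : B, (∀ b, z * b = b * z) ∧ π z = 0 ∧ w = z * y} := by
  classical
  obtain ⟨f, A, hff, hπf, hA, hdimA, -, -, -⟩ := exists_corner π hn hπ hnil
  have hAc : finrank k A = c := by
    rw [hdim, mul_comm] at hdimA
    exact (Nat.eq_of_mul_eq_mul_left (pow_pos hn 2) hdimA).symm
  have hnilK : ∀ y, π y = 0 → IsNilpotent y := by
    obtain ⟨N, hN⟩ := hnil
    intro y hy
    refine ⟨N, ?_⟩
    have h := Ideal.pow_mem_pow (I := RingHom.ker π) (RingHom.mem_ker.2 hy) N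
    rwa [hN, Submodule.zero_eq_bot, Submodule.mem_bot] at h
  -- a decomposition of one
  let o : Fin n := ⟨0, hn⟩
  choose a ha using fun i : Fin n => hπ (Matrix.single o i (1 : k))
  choose b hb using fun i : Fin n => hπ (Matrix.single i o (1 : k))
  set u := ∑ i, b i * f * a i with hu
  have hπu : π u = 1 := by
    simp only [hu, map_sum, map_mul, ha, hb, hπf, o, Matrix.single_mul_single_same, mul_one]
    exact Matrix.sum_single_eq_diagonal (fun _ => (1 : k))
  have huu : IsUnit u := by
    have h := (hnilK (1 - u) (by rw [map_sub, map_one, hπu, sub_self])).isUnit_one_sub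
    rwa [sub_sub_cancel] at h
  obtain ⟨w, hw⟩ := huu.exists_left_inv
  set d : Fin n → B := fun i => w * b i with hd
  have hπw : π w = 1 := by
    have := congrArg π hw
    rwa [map_mul, hπu, mul_one, map_one] at this
  have hone : ∑ i, d i * f * a i = 1 := by
    rw [← hw, hu, Finset.mul_sum]
    exact Finset.sum_congr rfl fun i _ => by simp [hd, mul_assoc]
  -- trace functions are central elements
  let Θ : B →ₗ[k] Module.Dual k B :=
    LinearMap.mk₂ k (fun p q => ε (p * q)) (fun p q r => by rw [add_mul, map_add])
      (fun s p q => by rw [smul_mul_assoc, map_smul]) (fun p q r => by rw [mul_add, map_add])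
      (fun s p q => by rw [mul_smul_comm, map_smul])
  have hΘ : Function.Bijective Θ := by
    have hinj : Function.Injective Θ := (injective_iff_map_eq_zero _).2 fun p hp =>
      hnd p fun q => LinearMap.congr_fun hp q
    exact ⟨hinj, (LinearMap.injective_iff_surjective_of_finrank_eq_finrank
      Subspace.dual_finrank_eq.symm).1 hinj⟩
  let Θe := LinearEquiv.ofBijective Θ hΘ
  let T : Module.Dual k (B ⧸ commSpan k B) →ₗ[k] B :=
    Θe.symm.toLinearMap.comp (commSpan k B).mkQ.dualMap
  have hT : ∀ τ q, ε (T τ * q) = τ ((commSpan k B).mkQ q) := fun τ q => by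
    have h : Θ (T τ) = (commSpan k B).mkQ.dualMap τ := Θe.apply_symm_apply _
    exact LinearMap.congr_fun h q
  have hcen : ∀ τ q, T τ * q = q * T τ := by
    intro τ q
    rw [← sub_eq_zero]
    refine hnd _ fun r => ?_
    rw [sub_mul, map_sub, mul_assoc, hT, hε (q * T τ) r, ← mul_assoc, hε (r * q) (T τ), hT,
      ← map_sub, ← map_sub, (Submodule.Quotient.mk_eq_zero _).2 (comm_mem_commSpan q r) |>
        (fun h => show (commSpan k B).mkQ (q * r - r * q) = 0 from h), map_zero]
  -- they fill the corner
  have hfz : ∀ z : B, (∀ q, z * q = q * z) → z * f ∈ A := fun z hz => by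
    rw [hA]
    refine ⟨z, ?_⟩
    simp only [LinearMap.comp_apply, LinearMap.mulLeft_apply, LinearMap.mulRight_apply]
    rw [hz f, ← mul_assoc, hff]
  let Λ : Module.Dual k (B ⧸ commSpan k B) →ₗ[k] A :=
    LinearMap.codRestrict A ((LinearMap.mulRight k f).comp T) fun τ => hfz _ (hcen τ)
  have hΛinj : Function.Injective Λ := by
    refine (injective_iff_map_eq_zero _).2 fun τ hτ => ?_
    have h0 : T τ * f = 0 := congrArg Subtype.val hτ
    have hz : T τ = 0 := by
      conv_lhs => rw [← mul_one (T τ), ← hone]
      rw [Finset.mul_sum]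
      refine Finset.sum_eq_zero fun i _ => ?_
      rw [← mul_assoc, ← mul_assoc, hcen τ (d i), mul_assoc (d i), h0, mul_zero, zero_mul]
    refine LinearMap.ext fun q => ?_
    induction q using Submodule.Quotient.induction_on with
    | _ q =>
      have h := hT τ q
      rw [hz, zero_mul, map_zero] at h
      exact h.symm
  have hΛsurj : Function.Surjective Λ :=
    (LinearMap.injective_iff_surjective_of_finrank_eq_finrank
      (by rw [Subspace.dual_finrank_eq, hc, hAc])).1 hΛinj
  have hlift : ∀ r : B, ∃ z, (∀ q, z * q = q * z) ∧ z * f = f * r * f := by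
    intro r
    obtain ⟨τ, hτ⟩ := hΛsurj ⟨f * r * f, hA ▸ ⟨r, by simp [mul_assoc]⟩⟩
    exact ⟨T τ, hcen τ, congrArg Subtype.val hτ⟩
  choose z hzc hzf using fun i j : Fin n => hlift (a i * x * d j)
  have hπz : ∀ i j, π (z i j) = 0 := by
    intro i j
    obtain ⟨s, hs⟩ : ∃ s : k, Matrix.scalar (Fin n) s = π (z i j) := by
      refine Matrix.mem_range_scalar_iff_commute_single'.2 fun p q => ?_
      obtain ⟨e, he⟩ := hπ (Matrix.single p q 1)
      rw [← he]
      show π e * π (z i j) = π (z i j) * π e
      rw [← map_mul, ← map_mul, hzc i j e]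
    have h := congrArg π (hzf i j)
    rw [map_mul, map_mul, map_mul, map_mul, map_mul, hx, ← hs, hπf] at h
    simp only [mul_zero, zero_mul] at h
    have h' := congrFun (congrFun h o) o
    simp only [Matrix.scalar_apply, Matrix.diagonal_mul, o, Matrix.single_apply_same, mul_one,
      Matrix.zero_apply] at h'
    rw [← hs, h']
    exact map_zero _
  have hxdec : x = ∑ i, ∑ j, z i j * (d i * f * a j) := by
    conv_lhs => rw [← one_mul x, ← mul_one (1 * x), ← hone]
    rw [Finset.sum_mul, Finset.sum_mul]
    refine Finset.sum_congr rfl fun i _ => ?_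
    rw [Finset.mul_sum]
    refine Finset.sum_congr rfl fun j _ => ?_
    calc d i * f * a i * x * (d j * f * a j) = d i * (f * (a i * x * d j) * f) * a j := by
          simp only [mul_assoc]
      _ = d i * (z i j * f) * a j := by rw [hzf i j]
      _ = _ := by rw [← mul_assoc (d i) (z i j), ← hzc i j (d i)]; simp only [mul_assoc]
  rw [hxdec]
  exact Submodule.sum_mem _ fun i _ => Submodule.sum_mem _ fun j _ =>
    Submodule.subset_span ⟨_, _, hzc i j, hπz i j, rfl⟩

end CfsgLib.EqualDegree
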