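import Cfsg.Agent.Lib.Jordan.CyclicDefect.Irreducible
import Cfsg.Agent.Lib.Blocks.CentralDefect

/-!
# Representations over a valuation ring: idempotents, scalars, defect zero
-/

set_option autoImplicit false
set_option linter.unusedSectionVars false
set_option linter.style.haveILetI false

noncomputable section

namespace CfsgLib.EqualDegree

open Cfsg CfsgLib.Blocks MonoidAlgebra CfsgLib.Jordan.CyclicDefect Module
open scoped Matrix

variable {H : Type*} [Group H] [Fintype H] {M : Ideal AlgInt} [M.IsPrime] (S : Above M)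

/-- The block idempotent over the valuation ring. -/
def eV (B : Set (IrrCharacter H)) (hB : IsPBlock M B) : MonoidAlgebra S.V H :=
  mapRingHom H S.ιV (idemLoc M B (memLocalRing_blockCoeff hB) : MonoidAlgebra (locRing M) H)

/-- The block idempotent over the residue field of the valuation ring. -/
def eK (B : Set (IrrCharacter H)) (hB : IsPBlock M B) : MonoidAlgebra S.K H :=
  mapRingHom H S.res (eV S B hB)

variable {B : Set (IrrCharacter H)} (hB : IsPBlock M B)

theorem eV_mul_self : eV S B hB * eV S B hB = eV S B hB := by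
  rw [eV, ← map_mul]
  exact congrArg _ (congrArg Subtype.val (idemLoc_mul_self (memLocalRing_blockCoeff hB)))

theorem eK_mul_self : eK S B hB * eK S B hB = eK S B hB := by
  rw [eK, ← map_mul, eV_mul_self]

theorem isClassElem_eV : IsClassElem (eV S B hB) :=
  (idemLoc M B (memLocalRing_blockCoeff hB)).2.map _

theorem isClassElem_eK : IsClassElem (eK S B hB) := (isClassElem_eV S hB).map _

theorem eK_eq_kappa :
    eK S B hB = mapRingHom H S.κ (BrauerPairs.redElem M (blockCoeff B)) := by
  refine MonoidAlgebra.ext (Finsupp.ext fun g => ?_)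
  rw [eK, eV, coeff_mapRingHom, coeff_mapRingHom, coeff_mapRingHom, BrauerPairs.coeff_redElem,
    BrauerPairs.redC_of_mem (memLocalRing_blockCoeff hB g), S.κ_red]
  rfl

theorem coe_coeff_eV (g : H) : (((eV S B hB).coeff g : S.V) : ℂ) = blockCoeff B g := by
  rw [eV, coeff_mapRingHom]
  rfl

variable {d : ℕ} (ρ : H →* Matrix (Fin d) (Fin d) S.V)

/-- An idempotent of trace zero or of full trace is zero or one. -/
theorem eq_zero_or_one_of_trace {W : Matrix (Fin d) (Fin d) S.V} (hW : W * W = W) :
    ((W.trace : ℂ) = 0 → W = 0) ∧ ((W.trace : ℂ) = d → W = 1) := by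
  have key : ∀ U : Matrix (Fin d) (Fin d) S.V, U * U = U → (U.trace : ℂ) = 0 → U = 0 := by
    intro U hU h0
    obtain ⟨r, hr⟩ := BrauerCharacters.exists_rank_of_idempotent hU
    have h1 : (r : ℂ) = 0 := by
      rw [← (hr ℂ S.V.subtype).2, show (U.map S.V.subtype).trace = ((U.trace : S.V) : ℂ) by
        simp [Matrix.trace]]
      exact h0
    have h2 : (U.map S.V.subtype).mulVecLin = 0 := by
      rw [← LinearMap.range_eq_bot, ← Submodule.finrank_eq_zero, (hr ℂ S.V.subtype).1]
      exact_mod_cast h1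
    refine Matrix.map_injective (f := S.V.subtype) Subtype.val_injective ?_
    refine (Matrix.ext_iff_mulVec.2 fun v => ?_).trans (Matrix.map_zero _ (map_zero _)).symm
    rw [Matrix.zero_mulVec]
    exact LinearMap.congr_fun h2 v
  refine ⟨key W hW, fun h => ?_⟩
  have h1 : (1 - W) * (1 - W) = 1 - W := by
    rw [mul_sub, mul_one, sub_mul, one_mul, hW, sub_self, sub_zero]
  have h2 : ((1 - W).trace : ℂ) = 0 := by
    rw [Matrix.trace_sub, Matrix.trace_one, Fintype.card_fin]
    push_cast
    rw [h, sub_self]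
  exact (sub_eq_zero.1 (key _ h1 h2)).symm

/-- An idempotent whose reduction is zero or one is zero or one. -/
theorem eq_zero_or_one_of_map {W : Matrix (Fin d) (Fin d) S.V} (hW : W * W = W) :
    (W.map S.res = 0 → W = 0) ∧ (W.map S.res = 1 → W = 1) := by
  have key : ∀ U : Matrix (Fin d) (Fin d) S.V, U * U = U → U.map S.res = 0 → U = 0 := by
    intro U hU h0
    obtain ⟨r, hr⟩ := BrauerCharacters.exists_rank_of_idempotent hU
    have h1 := (hr S.K S.res).1
    rw [h0, Matrix.mulVecLin_zero, LinearMap.range_zero, finrank_bot] at h1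
    refine (eq_zero_or_one_of_trace S hU).1 ?_
    rw [show ((U.trace : S.V) : ℂ) = (U.map S.V.subtype).trace by simp [Matrix.trace],
      (hr ℂ S.V.subtype).2, ← h1, Nat.cast_zero]
  refine ⟨key W hW, fun h => ?_⟩
  have h1 : (1 - W) * (1 - W) = 1 - W := by
    rw [mul_sub, mul_one, sub_mul, one_mul, hW, sub_self, sub_zero]
  refine (sub_eq_zero.1 (key _ h1 ?_)).symm
  rw [Matrix.map_sub _ (map_sub S.res), h, Matrix.map_one _ (map_zero _) (map_one _), sub_self]

variable {χ : IrrCharacter H} (htr : ∀ g, (((ρ g).trace : S.V) : ℂ) = (χ : H → ℂ) g)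
include htr

theorem trace_valAlg_eq_omega (z : MonoidAlgebra S.V H) :
    (((valAlg S ρ z).trace : S.V) : ℂ) =
      (d : ℂ) * omega (χ : H → ℂ) (mapRingHom H S.V.subtype z) := by
  have h1 := CharTheory.apply_one_ne_zero_of_isIrr χ.2
  have hd := degree_eq S ρ htr
  rw [trace_valAlg S ρ htr, omega_eq_sum, ← hd, mul_div_cancel₀ _ h1]
  exact Finset.sum_congr rfl fun g _ => by rw [coeff_mapRingHom]; rfl

open scoped Classical in
/-- The block idempotent acts as one on the block and as zero off it. -/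
theorem valAlg_eV : valAlg S ρ (eV S B hB) = if χ ∈ B then 1 else 0 := by
  have hW : valAlg S ρ (eV S B hB) * valAlg S ρ (eV S B hB) = valAlg S ρ (eV S B hB) := by
    rw [← map_mul, eV_mul_self]
  have h : (((valAlg S ρ (eV S B hB)).trace : S.V) : ℂ) = (d : ℂ) * if χ ∈ B then 1 else 0 := by
    rw [trace_valAlg_eq_omega S ρ htr, ← omega_blockIdem B χ]
    congr 2
    refine MonoidAlgebra.ext (Finsupp.ext fun g => ?_)
    rw [coeff_mapRingHom, coeff_blockIdem]
    exact coe_coeff_eV S hB g
  split_ifs with hχ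
  · exact (eq_zero_or_one_of_trace S hW).2 (by rw [h, if_pos hχ, mul_one])
  · exact (eq_zero_or_one_of_trace S hW).1 (by rw [h, if_neg hχ, mul_zero])

open scoped Classical in
theorem redAlg_eK : redAlg S ρ (eK S B hB) = if χ ∈ B then 1 else 0 := by
  rw [eK, ← map_valAlg, valAlg_eV S hB ρ htr]
  split_ifs
  · exact Matrix.map_one _ (map_zero _) (map_one _)
  · exact Matrix.map_zero _ (map_zero _)

omit htr in
/-- Coefficients from the traces in all representations. -/
theorem card_mul_coeff [Fintype (IrrCharacter H)] {N : IrrCharacter H → ℕ}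
    (σ : ∀ χ, H →* Matrix (Fin (N χ)) (Fin (N χ)) S.V)
    (hσ : ∀ χ g, (((σ χ g).trace : S.V) : ℂ) = (χ : H → ℂ) g) (z : MonoidAlgebra S.V H) :
    (Nat.card H : ℂ) * ((z.coeff 1 : S.V) : ℂ) =
      ∑ χ : IrrCharacter H, (χ : H → ℂ) 1 * (((valAlg S (σ χ) z).trace : S.V) : ℂ) := by
  rw [show ((z.coeff 1 : S.V) : ℂ) = (mapRingHom H S.V.subtype z).coeff 1 by
    rw [coeff_mapRingHom]; rfl, ← sum_sq_mul_omega]
  refine Finset.sum_congr rfl fun χ _ => ?_
  rw [trace_valAlg_eq_omega S (σ χ) (hσ χ), degree_eq S (σ χ) (hσ χ)]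
  ring

omit htr in
/-- An element acting as zero in every representation is zero. -/
theorem eq_zero_of_forall_valAlg {N : IrrCharacter H → ℕ}
    (σ : ∀ χ, H →* Matrix (Fin (N χ)) (Fin (N χ)) S.V)
    (hσ : ∀ χ g, (((σ χ g).trace : S.V) : ℂ) = (χ : H → ℂ) g) {z : MonoidAlgebra S.V H}
    (hz : ∀ χ, valAlg S (σ χ) z = 0) : z = 0 := by
  classical
  haveI := Fintype.ofFinite (IrrCharacter H)
  refine MonoidAlgebra.ext (Finsupp.ext fun g => ?_)
  have h := card_mul_coeff S σ hσ (z * single g⁻¹ 1)
  simp only [map_mul, hz, zero_mul, Matrix.trace_zero, ZeroMemClass.coe_zero, mul_zero,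
    Finset.sum_const_zero, coeff_mul_single_apply, inv_inv, one_mul, mul_one, mul_eq_zero,
    Nat.cast_eq_zero, Nat.card_pos.ne', false_or] at h
  exact Subtype.ext h

/-- The reduced representation of a character of defect zero is onto. -/
theorem redAlg_surjective_of_full {p : ℕ} [Fact p.Prime] (hM : IsPModular p M)
    (hfull : (charDegree (χ : H → ℂ)).factorization p = (Nat.card H).factorization p) :
    Function.Surjective (redAlg S ρ) := by
  classical
  haveI : M.IsMaximal := hM.2.1
  haveI := charP_res hM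
  haveI := isAlgClosed_res (M := M)
  set b := blockOf M (χ : H → ℂ) with hb
  have hbl : IsPBlock M b := isPBlock_blockOf χ
  have hχb : χ ∈ b := mem_blockOf_self χ
  have hD : IsDefectGroup p M b (⊥ : Subgroup H) :=
    isDefectGroup_of_centralDefect hM hbl bot_le IsPGroup.of_bot hχb
      (fun z hz => by rw [Subgroup.mem_bot.1 hz]) (by simp [hfull])
  have hbi := BrauerPairs.isBlockIdem_redElem_blockCoeff (M := M) hbl
  obtain ⟨e0, he0⟩ := BrauerPairs.exists_isMaxPair_of_isDefectIn hbi
    ((BrauerPairs.isDefectGroup_iff hM hbl).1 hD)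
  have hcomm : ∀ x ∈ (⊥ : Subgroup H), ∀ y ∈ (⊥ : Subgroup H), x * y = y * x := fun x hx y _ => by
    rw [Subgroup.mem_bot.1 hx, one_mul, mul_one]
  have hA : AbNilp p M b (⊥ : Subgroup H) e0 := ⟨hM, hbl, he0,
    (he0.isNilp_iff_of_abelian hbi hcomm).2 fun x _ => Subgroup.mem_centralizer_iff.2 fun y hy => by
      rw [Subgroup.mem_bot.1 hy, one_mul, mul_one], hcomm⟩
  exact hA.redAlg_surjective S ρ hχb htr

end CfsgLib.EqualDegree
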