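import Cfsg.Agent.Lib.EqualDegree.Algebra
import Cfsg.Agent.Lib.EqualDegree.Reps
import Cfsg.Agent.Lib.CharDegreesTheory.InflationBlocks

/-!
# Blocks over a normal abelian `p`-subgroup in which all degrees are equal and as small as possible

If every character of a block of `H` has degree `n`, with the `p`-part of `n` equal to that of
`|H/V|` for an abelian normal `p`-subgroup `V`, then the block algebra has one simple module, of
dimension `n`, and the elements `v - 1` of the block are spanned by the multiples of the central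
elements vanishing in `H/V`.
-/

set_option autoImplicit false
set_option linter.unusedSectionVars false
set_option linter.style.haveILetI false

noncomputable section

namespace CfsgLib.EqualDegree

open Cfsg CfsgLib.Blocks MonoidAlgebra CfsgLib.Jordan.CyclicDefect Module CfsgLib.BrauerPairs
  CfsgLib.BrauerCharacters
open scoped Matrix

section Unipotent

variable {K : Type*} [Field K] {p : ℕ} [Fact p.Prime] [CharP K p] {H : Type*} [Group H] [Finite H]
  {d : ℕ}

/-- An abelian normal `p`-subgroup acts trivially in an absolutely irreducible representation. -/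
theorem map_single_eq_one_of_surjective
    (ρ : MonoidAlgebra K H →ₐ[K] Matrix (Fin d) (Fin d) K) (hρ : Function.Surjective ρ)
    {V : Subgroup H} [V.Normal] (hV : IsPGroup p V)
    (hc : ∀ x ∈ V, ∀ y ∈ V, x * y = y * x) {v : H} (hv : v ∈ V) : ρ (single v 1) = 1 := by
  classical
  rcases Nat.eq_zero_or_pos d with rfl | hd
  · exact Subsingleton.elim _ _
  haveI : Nonempty (Fin d) := ⟨⟨0, hd⟩⟩
  have step : ∀ s : Finset H, (∀ u ∈ s, u ∈ V) →
      ∃ w : Fin d → K, w ≠ 0 ∧ ∀ u ∈ s, ρ (single u 1) *ᵥ w = w := by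
    intro s
    induction s using Finset.induction_on with
    | empty =>
      exact fun _ => ⟨fun _ => 1, fun h => one_ne_zero (congrFun h ⟨0, hd⟩), by simp⟩
    | insert a t _ ih =>
      intro hs
      obtain ⟨w, hw0, hw⟩ := ih fun u hu => hs u (Finset.mem_insert_of_mem hu)
      have haV := hs a (Finset.mem_insert_self a t)
      set N := ρ (single a 1) - 1 with hN
      obtain ⟨j, hj⟩ := hV ⟨a, haV⟩
      have hj' : a ^ p ^ j = 1 := congrArg Subtype.val hj
      haveI : CharP (Matrix (Fin d) (Fin d) K) p := inferInstance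
      have hnil : N ^ p ^ j = 0 := by
        rw [hN, sub_pow_char_pow_of_commute _ _ (Commute.one_right _), one_pow, ← map_pow,
          single_pow, one_pow, hj', ← one_def, map_one, sub_self]
      have hex : ∃ k, N ^ (k + 1) *ᵥ w = 0 := ⟨p ^ j, by
        rw [pow_succ', hnil, mul_zero, Matrix.zero_mulVec]⟩
      set k := Nat.find hex with hk
      refine ⟨N ^ k *ᵥ w, fun h0 => ?_, fun u hu => ?_⟩
      · rcases Nat.eq_zero_or_pos k with h | h
        · rw [h, pow_zero, Matrix.one_mulVec] at h0
          exact hw0 h0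
        · refine Nat.find_min hex (m := k - 1) (by omega) ?_
          rwa [Nat.sub_add_cancel h]
      · rw [Finset.mem_insert] at hu
        rcases hu with rfl | hu
        · have h1 : N *ᵥ (N ^ k *ᵥ w) = 0 := by
            rw [Matrix.mulVec_mulVec, ← pow_succ']
            exact Nat.find_spec hex
          rw [hN, Matrix.sub_mulVec, Matrix.one_mulVec, sub_eq_zero] at h1
          rwa [← hN] at h1
        · have hcm : Commute (ρ (single u 1)) N := by
            refine Commute.sub_right ?_ (Commute.one_right _)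
            show _ * _ = _ * _
            rw [← map_mul, ← map_mul, single_mul_single, single_mul_single,
              hc u (hs u (Finset.mem_insert_of_mem hu)) a haV]
          rw [Matrix.mulVec_mulVec, (hcm.pow_right k).eq, ← Matrix.mulVec_mulVec, hw u hu]
  -- a vector fixed by the conjugates of `v`
  have hinv : ∀ w : Fin d → K, (∀ u ∈ V, ρ (single u 1) *ᵥ w = w) →
      ∀ a : MonoidAlgebra K H, ∀ u ∈ V, ρ (single u 1) *ᵥ (ρ a *ᵥ w) = ρ a *ᵥ w := by
    intro w hw a
    induction a using MonoidAlgebra.induction_linear with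
    | zero => intro u _; simp
    | add x y hx hy =>
      intro u hu
      rw [map_add, Matrix.add_mulVec, Matrix.mulVec_add, hx u hu, hy u hu]
    | single g c =>
      intro u hu
      rw [Matrix.mulVec_mulVec, ← map_mul,
        show single u (1 : K) * single g c = single g c * single (g⁻¹ * u * g) (1 : K) by
          rw [single_mul_single, single_mul_single, one_mul, mul_one]; group,
        map_mul, ← Matrix.mulVec_mulVec,
        hw _ (by simpa using Subgroup.Normal.conj_mem ‹V.Normal› u hu g⁻¹)]
  obtain ⟨w, hw0, hw'⟩ := step (V : Set H).toFinite.toFinset fun u hu =>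
    (V : Set H).toFinite.mem_toFinset.1 hu
  have hw : ∀ u ∈ V, ρ (single u 1) *ᵥ w = w := fun u hu =>
    hw' u ((V : Set H).toFinite.mem_toFinset.2 hu)
  refine Matrix.ext_iff_mulVec.2 fun x => ?_
  obtain ⟨i, hi⟩ := Function.ne_iff.1 hw0
  obtain ⟨a, ha⟩ := hρ (Matrix.of fun r c => if c = i then x r * (w i)⁻¹ else 0)
  have hx : ρ a *ᵥ w = x := by
    rw [ha]
    funext r
    simp only [Matrix.mulVec, dotProduct, Matrix.of_apply, ite_mul, zero_mul, Finset.sum_ite_eq',
      Finset.mem_univ, if_true]
    rw [mul_assoc, inv_mul_cancel₀ hi, mul_one]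
  rw [Matrix.one_mulVec, ← hx]
  exact hinv w hw a v hv

end Unipotent

/-- A nil right multiple set of the kernel is killed by a surjection onto matrices. -/
theorem eq_zero_of_forall_isNilpotent {K : Type*} [Field K] {A : Type*} [Ring A] [Algebra K A]
    {N : ℕ} (R : A →ₐ[K] Matrix (Fin N) (Fin N) K) (hR : Function.Surjective R) {x : A}
    (hx : ∀ y, IsNilpotent (x * y)) : R x = 0 := by
  classical
  ext i j
  obtain ⟨y, hy⟩ := hR (Matrix.single j i 1)
  have h := (Matrix.isNilpotent_trace_of_isNilpotent ((hx y).map R)).eq_zero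
  rw [map_mul, hy, Matrix.trace_mul_comm] at h
  simpa [Matrix.trace, Matrix.mul_apply, Matrix.single_apply, ite_and, Finset.sum_ite_eq'] using h

variable {H : Type*} [Group H] [Fintype H] {M : Ideal AlgInt} [M.IsPrime] (S : Above M)
  {Q : Type*} [Group Q] [Fintype Q] (φ : H →* Q)

theorem redAlg_mapG {d : ℕ} (ρ : Q →* Matrix (Fin d) (Fin d) S.V) (x : MonoidAlgebra S.K H) :
    redAlg S ρ (mapG φ x) = redAlg S (ρ.comp φ) x := by
  induction x using MonoidAlgebra.induction_linear with
  | zero => simp
  | add a b ha hb => rw [map_add, map_add, map_add, ha, hb]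
  | single g c =>
    rw [CharDegreesTheory.mapG_single_eq, redAlg_single, redAlg_single]
    rfl

/-- The map of group algebras over the valuation ring. -/
def mapV : MonoidAlgebra S.V H →ₐ[S.V] MonoidAlgebra S.V Q :=
  MonoidAlgebra.mapDomainAlgHom S.V S.V φ

theorem valAlg_mapV {d : ℕ} (ρ : Q →* Matrix (Fin d) (Fin d) S.V) (x : MonoidAlgebra S.V H) :
    valAlg S ρ (mapV S φ x) = valAlg S (ρ.comp φ) x := by
  induction x using MonoidAlgebra.induction_linear with
  | zero => simp
  | add a b ha hb => rw [map_add, map_add, map_add, ha, hb]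
  | single g c =>
    rw [show mapV S φ (single g c) = single (φ g) c by simp [mapV], valAlg_single, valAlg_single]
    rfl

theorem map_res_mapV (x : MonoidAlgebra S.V H) :
    mapRingHom Q S.res (mapV S φ x) = mapG φ (mapRingHom H S.res x) := by
  induction x using MonoidAlgebra.induction_linear with
  | zero => simp
  | add a b ha hb => simp only [map_add, ha, hb]
  | single g c =>
    rw [show mapV S φ (single g c) = single (φ g) c by simp [mapV], mapRingHom_single,
      mapRingHom_single, CharDegreesTheory.mapG_single_eq]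

/-- An element whose nonzero actions are in degrees of full `p`-part reduces to zero as soon as
all its reduced actions vanish. -/
theorem map_res_eq_zero_of_full {p : ℕ} [Fact p.Prime] (hM : IsPModular p M)
    (σ : ∀ η : IrrCharacter Q, LocalRep S η) (w : MonoidAlgebra S.V Q)
    (hfull : ∀ η, valAlg S (σ η).ρ w ≠ 0 →
      (charDegree (η : Q → ℂ)).factorization p = (Nat.card Q).factorization p)
    (hred : ∀ η, redAlg S (σ η).ρ (mapRingHom Q S.res w) = 0) : mapRingHom Q S.res w = 0 := by
  classical
  haveI := Fintype.ofFinite (IrrCharacter Q)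
  haveI := S.charP hM
  refine MonoidAlgebra.ext (Finsupp.ext fun g => ?_)
  rw [coeff_mapRingHom, MonoidAlgebra.coeff_zero, Finsupp.zero_apply]
  set q := p ^ (Nat.card Q).factorization p with hq
  set u := Nat.card Q / q with hu
  have hqu : q * u = Nat.card Q := Nat.ordProj_mul_ordCompl_eq_self _ p
  have hq0 : (q : ℂ) ≠ 0 := Nat.cast_ne_zero.2 (pow_pos (Fact.out (p := p.Prime)).pos _).ne'
  have hu0 : (u : S.K) ≠ 0 := by
    rw [Ne, CharP.cast_eq_zero_iff S.K p]
    exact Nat.not_dvd_ordCompl Fact.out Nat.card_pos.ne'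
  let t : IrrCharacter Q → S.V := fun η =>
    ((charDegree (η : Q → ℂ) / q : ℕ) : S.V) * (valAlg S (σ η).ρ (w * single g⁻¹ 1)).trace
  have key : (u : S.V) * w.coeff g = ∑ η, t η := by
    refine Subtype.ext (mul_left_cancel₀ hq0 ?_)
    have h := card_mul_coeff S (fun η => (σ η).ρ) (fun η => (σ η).trace_eq) (w * single g⁻¹ 1)
    rw [coeff_mul_single_apply, mul_one, inv_inv, one_mul] at h
    push_cast
    rw [← mul_assoc, ← Nat.cast_mul, hqu, h, Finset.mul_sum]
    refine Finset.sum_congr rfl fun η _ => ?_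
    simp only [t]
    push_cast
    by_cases h0 : valAlg S (σ η).ρ w = 0
    · simp [map_mul, h0]
    · rw [← charDegree_cast η, ← mul_assoc, ← Nat.cast_mul, hq, ← hfull η h0,
        Nat.ordProj_mul_ordCompl_eq_self]
  have h := congrArg S.res key
  rw [map_mul, map_natCast, map_sum] at h
  rw [Finset.sum_eq_zero (fun η _ => ?_), mul_eq_zero] at h
  · exact h.resolve_left hu0
  · have h1 : (valAlg S (σ η).ρ (w * single g⁻¹ 1)).map S.res = 0 := by
      rw [map_valAlg, map_mul, map_mul, hred η, zero_mul]
    simp only [t]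
    rw [map_mul]
    rw [show S.res (valAlg S (σ η).ρ (w * single g⁻¹ 1)).trace =
      ((valAlg S (σ η).ρ (w * single g⁻¹ 1)).map S.res).trace by
        simp only [Matrix.trace, Matrix.diag_apply, map_sum, Matrix.map_apply], h1,
      Matrix.trace_zero, mul_zero]

omit φ in
/-- Central characters of one block agree on central elements modulo the maximal ideal. -/
theorem res_eq_of_omega {B : Set (IrrCharacter H)} (hB : IsPBlock M B) {χ ψ : IrrCharacter H}
    (hχ : χ ∈ B) (hψ : ψ ∈ B) {F : MonoidAlgebra S.V H} (hF : IsClassElem F) {x y : S.V}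
    (hx : (x : ℂ) = omega (χ : H → ℂ) (mapRingHom H S.V.subtype F))
    (hy : (y : ℂ) = omega (ψ : H → ℂ) (mapRingHom H S.V.subtype F)) : S.res x = S.res y := by
  classical
  haveI := Fintype.ofFinite (ConjClasses H)
  have hsum : ∀ η : IrrCharacter H, omega (η : H → ℂ) (mapRingHom H S.V.subtype F) =
      ((∑ c : ConjClasses H, F.coeff c.out *
        ⟨centralChar (η : H → ℂ) c.out, S.le _ (memLocalRing_centralChar η c.out)⟩ : S.V) : ℂ) := by
    intro η
    rw [omega_eq_sum_classes (CharTheory.IsIrrCharacter.isClassFunction η.2) (hF.map _)]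
    push_cast
    exact Finset.sum_congr rfl fun c _ => by rw [coeff_mapRingHom]; rfl
  rw [Subtype.ext (hx.trans (hsum χ)), Subtype.ext (hy.trans (hsum ψ)), map_sum, map_sum]
  refine Finset.sum_congr rfl fun c _ => ?_
  rw [map_mul, map_mul, S.res_eq_of_sub (memLocalRing_centralChar χ c.out)
    (memLocalRing_centralChar ψ c.out) (sameBlock_of_mem hB hχ hψ c.out)]

variable {p : ℕ} [Fact p.Prime] (hM : IsPModular p M) {B : Set (IrrCharacter H)}
  (hB : IsPBlock M B) {n : ℕ} (hdeg : ∀ χ ∈ B, charDegree (χ : H → ℂ) = n)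
  (hfull : n.factorization p = (Nat.card Q).factorization p)
include hM hdeg hfull

set_option maxHeartbeats 1600000 in
/-- The elements `v - 1` of the block are multiples of central elements vanishing in the
quotient. -/
theorem sub_one_mul_eK_mem_span (hφ : Function.Surjective φ) (hV : IsPGroup p φ.ker)
    (hc : ∀ x ∈ φ.ker, ∀ y ∈ φ.ker, x * y = y * x) {v : H} (hv : v ∈ φ.ker) :
    (single v (1 : S.K) - 1) * eK S B hB ∈ Submodule.span S.K
      {w | ∃ z y : MonoidAlgebra S.K H, IsClassElem z ∧ mapG φ z = 0 ∧ w = z * y} := by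
  classical
  haveI : M.IsMaximal := hM.2.1
  haveI := S.charP hM
  haveI := Fintype.ofFinite (IrrCharacter H)
  haveI := Fintype.ofFinite (ConjClasses H)
  set e := eK S B hB with he
  have hec : IsClassElem e := isClassElem_eK S hB
  have hee : e * e = e := eK_mul_self S hB
  haveI := isTwoSided_annIdeal hec
  haveI := finiteDimensional_annQuot (e := e)
  obtain ⟨χ0, hχ0⟩ := isPBlock_nonempty hB
  have hn : 0 < n := hdeg χ0 hχ0 ▸ Nat.pos_of_ne_zero (charDegree_ne_zero' χ0)
  let rep : ∀ χ : IrrCharacter H, LocalRep S χ := fun χ => (exists_localRep S χ).some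
  let repQ : ∀ η : IrrCharacter Q, LocalRep S η := fun η => (exists_localRep S η).some
  have hN : ∀ χ ∈ B, (rep χ).N = n := by
    intro χ hχ
    have h := degree_eq S (rep χ).ρ (rep χ).trace_eq
    rw [← charDegree_cast χ, hdeg χ hχ] at h
    exact_mod_cast h.symm
  -- the semisimple quotient
  haveI := IsArtinianRing.of_finite S.K (MonoidAlgebra S.K H ⧸ annIdeal e)
  obtain ⟨m, dm, hdm, ⟨iso⟩⟩ :=
    IsSemisimpleRing.exists_algEquiv_pi_matrix_of_isAlgClosed S.K
      ((MonoidAlgebra S.K H ⧸ annIdeal e) ⧸
        Ring.jacobson (MonoidAlgebra S.K H ⧸ annIdeal e))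
  set π := iso.toAlgHom.comp
    (Ideal.Quotient.mkₐ S.K (Ring.jacobson (MonoidAlgebra S.K H ⧸ annIdeal e)))
    with hπdef
  have hπ : Function.Surjective π := iso.surjective.comp (Ideal.Quotient.mkₐ_surjective S.K _)
  have hker : RingHom.ker π = Ring.jacobson (MonoidAlgebra S.K H ⧸ annIdeal e) := by
    ext x
    rw [RingHom.mem_ker]
    show iso (Ideal.Quotient.mk _ x) = 0 ↔ _
    rw [map_eq_zero_iff iso iso.injective, Ideal.Quotient.eq_zero_iff_mem]
  have hnilI : IsNilpotent (RingHom.ker π) := hker ▸ IsSemiprimaryRing.isNilpotent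
  have hnilπ : ∀ x, π x = 0 → IsNilpotent x := by
    obtain ⟨k, hk⟩ := hnilI
    intro x hx
    refine ⟨k, ?_⟩
    have h := Ideal.pow_mem_pow (I := RingHom.ker π) (RingHom.mem_ker.2 hx) k
    rwa [hk, Submodule.zero_eq_bot, Submodule.mem_bot] at h
  -- the kernel acts trivially
  have hπv : ∀ x ∈ φ.ker, π (annMap e (single x 1)) = 1 := fun x hx => funext fun i =>
    map_single_eq_one_of_surjective
      (((Pi.evalAlgHom S.K _ i).comp π).comp (annMap e))
      (fun z => by
        obtain ⟨y, hy⟩ := hπ (Pi.single i z)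
        obtain ⟨a, rfl⟩ := annMap_surjective y
        exact ⟨a, by simp [hy]⟩) hV hc hx
  have hsec : ∀ x, mapG φ x = 0 → π (annMap e x) = 0 := by
    have key : ∀ x, π (annMap e x) =
        π (annMap e (MonoidAlgebra.mapDomain (Function.surjInv hφ) (mapG φ x))) := by
      intro x
      induction x using MonoidAlgebra.induction_linear with
      | zero => simp
      | add a b ha hb => simp only [map_add, MonoidAlgebra.mapDomain_add, ha, hb]
      | single g c =>
        rw [CharDegreesTheory.mapG_single_eq, MonoidAlgebra.mapDomain_single]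
        set s := Function.surjInv hφ (φ g)
        have hs : s⁻¹ * g ∈ φ.ker := by
          simp [MonoidHom.mem_ker, s, Function.surjInv_eq hφ]
        rw [show single g c = single s c * single (s⁻¹ * g) 1 by
          rw [single_mul_single, mul_one, mul_inv_cancel_left], map_mul, map_mul, hπv _ hs,
          mul_one]
    intro x hx
    rw [key, hx, MonoidAlgebra.mapDomain_zero, map_zero, map_zero]
  -- lifted idempotents
  let E : (Σ i, Fin (dm i)) → Π i, Matrix (Fin (dm i)) (Fin (dm i)) S.K := fun s =>
    Pi.single s.1 (Matrix.single s.2 s.2 1)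
  have hE : OrthogonalIdempotents E := by
    refine ⟨fun s => ?_, ?_⟩
    · simp [IsIdempotentElem, E, ← Pi.single_mul]
    · rintro ⟨i, j⟩ ⟨i', j'⟩ h
      show E _ * E _ = 0
      by_cases hi : i = i'
      · subst hi
        simp only [E, ← Pi.single_mul]
        rw [Matrix.single_mul_single_of_ne (1 : S.K) j j j' (fun hj => h (by rw [hj])) 1]
        exact Pi.single_zero _
      · funext k
        simp only [E, Pi.mul_apply, Pi.zero_apply]
        by_cases hk : k = i
        · subst hk
          rw [Pi.single_eq_of_ne hi, mul_zero]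
        · rw [Pi.single_eq_of_ne hk, zero_mul]
  obtain ⟨f, hf, hπf'⟩ := hE.lift_of_isNilpotent_ker π.toRingHom
    (fun x hx => hnilπ x hx) fun s => hπ (E s)
  have hπf : ∀ s, π (f s) = E s := fun s => congrFun hπf' s
  set F : Fin m → MonoidAlgebra S.K H ⧸ annIdeal e := fun i => ∑ j, f ⟨i, j⟩ with hFdef
  have hπF : ∀ i, π (F i) = Pi.single i 1 := by
    intro i
    simp only [F, map_sum, hπf, E]
    refine (map_sum (AddMonoidHom.single (fun i : Fin m => Matrix (Fin (dm i)) (Fin (dm i)) S.K) i)
      _ _).symm.trans ?_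
    exact congrArg (Pi.single i) (Matrix.sum_single_eq_diagonal (fun _ => (1 : S.K)))
  have hFone : ∑ i, F i = 1 := by
    have h1 : π (1 - ∑ i, F i) = 0 := by
      rw [map_sub, map_one, map_sum, Finset.sum_congr rfl fun i _ => hπF i]
      funext k
      simp
    have hi : IsIdempotentElem (∑ s, f s) := hf.isIdempotentElem_sum
    rw [Fintype.sum_sigma] at hi
    exact (sub_eq_zero.1 (IsIdempotentElem.eq_zero_of_isNilpotent hi.one_sub (hnilπ _ h1))).symm
  have hF2 : ∀ i i', F i * F i' = if i = i' then F i else 0 := by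
    intro i i'
    simp only [F, Finset.sum_mul, Finset.mul_sum, hf.mul_eq]
    split_ifs with h
    · subst h
      exact Finset.sum_congr rfl fun j _ => by simp
    · refine Finset.sum_eq_zero fun j _ => Finset.sum_eq_zero fun j' _ => if_neg fun hh => h ?_
      exact congrArg Sigma.fst hh
  -- the reduced representations of the block
  have hfactor : ∀ {N : ℕ} (ρ : H →* Matrix (Fin N) (Fin N) S.V) {χ : IrrCharacter H}, χ ∈ B →
      (∀ h, (((ρ h).trace : S.V) : ℂ) = (χ : H → ℂ) h) →
      ∃ R : (MonoidAlgebra S.K H ⧸ annIdeal e) →ₐ[S.K] Matrix (Fin N) (Fin N) S.K,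
        N = n ∧ ∀ a, R (annMap e a) = redAlg S ρ a := by
    intro N ρ χ hχ htr
    refine ⟨Ideal.Quotient.liftₐ (annIdeal e) (redAlg S ρ) fun a ha => ?_, ?_, fun a => rfl⟩
    · rw [← mul_one (redAlg S ρ a), ← (redAlg_eK S hB ρ htr).trans (if_pos hχ), ← map_mul,
        mem_annIdeal.1 ha, map_zero]
    · have h := degree_eq S ρ htr
      rw [← charDegree_cast χ, hdeg χ hχ] at h
      exact_mod_cast h.symm
  have huni : ∀ {N : ℕ} (R : (MonoidAlgebra S.K H ⧸ annIdeal e) →ₐ[S.K]
      Matrix (Fin N) (Fin N) S.K) (i : Fin m), R (F i) ≠ 0 → ∀ j, R (f ⟨i, j⟩) ≠ 0 := by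
    intro N R i hi j hj
    apply hi
    simp only [F, map_sum]
    refine Finset.sum_eq_zero fun j' _ => ?_
    obtain ⟨a, ha⟩ := hπ (Pi.single i (Matrix.single j' j 1))
    obtain ⟨c, hc'⟩ := hπ (Pi.single i (Matrix.single j j' 1))
    have h := finrank_range_le_of_factor π.toRingHom (fun z hz => hnilπ z hz)
      (((Matrix.toLinAlgEquiv' (R := S.K)).toAlgHom).comp R) (hf.idem ⟨i, j'⟩)
      (f := f ⟨i, j⟩) (a := a) (c := c) (by
        show π _ = π _
        rw [map_mul, map_mul, hπf, hπf, ha, hc']
        simp [E, ← Pi.single_mul])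
    rw [show (((Matrix.toLinAlgEquiv' (R := S.K)).toAlgHom).comp R) (f ⟨i, j⟩) = 0 by
      simp [hj], LinearMap.range_zero, finrank_bot, Nat.le_zero, Submodule.finrank_eq_zero,
      LinearMap.range_eq_bot] at h
    exact (Matrix.toLinAlgEquiv' (R := S.K)).injective (h.trans (map_zero _).symm)
  have hcount : ∀ {N : ℕ} (R : (MonoidAlgebra S.K H ⧸ annIdeal e) →ₐ[S.K]
      Matrix (Fin N) (Fin N) S.K) (I : Finset (Fin m)), (∀ i ∈ I, R (F i) ≠ 0) →
      ∑ i ∈ I, dm i ≤ N := by
    intro N R I hI
    have h := (card_le_of_orthogonal (I.sigma fun i => (Finset.univ : Finset (Fin (dm i))))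
      (fun s => R (f s)) (fun s _ => by rw [← map_mul, (hf.idem s).eq])
      (fun s hs => huni R s.1 (hI _ (Finset.mem_sigma.1 hs).1) s.2)
      (fun s _ t _ hst => by rw [← map_mul, hf.ortho hst, map_zero])).1
    rw [Finset.card_sigma] at h
    simpa using h
  -- characters inflated from the quotient
  have hquot : ∀ η : IrrCharacter Q, ∀ x : MonoidAlgebra S.K H,
      redAlg S (repQ η).ρ (mapG φ (x * e)) ≠ 0 →
      ∃ R : (MonoidAlgebra S.K H ⧸ annIdeal e) →ₐ[S.K] Matrix (Fin n) (Fin n) S.K,
        Function.Surjective R ∧ R (annMap e x) ≠ 0 := by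
    intro η x hx
    let θ : IrrCharacter H := ⟨fun h => (η : Q → ℂ) (φ h), CharTheory.isIrrCharacter_comp η.2 hφ⟩
    have htrθ : ∀ h, ((((repQ η).ρ.comp φ h).trace : S.V) : ℂ) = (θ : H → ℂ) h := fun h =>
      (repQ η).trace_eq (φ h)
    have hθe := redAlg_eK S hB ((repQ η).ρ.comp φ) htrθ
    have hθ : θ ∈ B := by
      by_contra hθ
      apply hx
      rw [redAlg_mapG, map_mul, hθe, if_neg hθ, mul_zero]
    have hηfull : (charDegree (η : Q → ℂ)).factorization p = (Nat.card Q).factorization p := by
      rw [← hfull, ← hdeg θ hθ]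
      simp [θ, charDegree]
    obtain ⟨R, hNn, hR⟩ := hfactor ((repQ η).ρ.comp φ) hθ htrθ
    generalize hρ : (repQ η).ρ = ρ at hR hθe hx
    have hsurj : Function.Surjective R := fun X => by
      subst hρ
      obtain ⟨y, rfl⟩ := redAlg_surjective_of_full S (repQ η).ρ (repQ η).trace_eq hM hηfull X
      refine ⟨annMap e (MonoidAlgebra.mapDomain (Function.surjInv hφ) y), ?_⟩
      rw [hR, ← redAlg_mapG]
      congr 1
      induction y using MonoidAlgebra.induction_linear with
      | zero => simp
      | add a b ha hb => rw [MonoidAlgebra.mapDomain_add, map_add, ha, hb]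
      | single q c =>
        rw [MonoidAlgebra.mapDomain_single, CharDegreesTheory.mapG_single_eq,
          Function.surjInv_eq hφ]
    have hne : R (annMap e x) ≠ 0 := by
      rw [hR]
      rwa [redAlg_mapG, map_mul, hθe, if_pos hθ, mul_one] at hx
    clear hρ hR hθe hx ρ htrθ
    generalize (repQ η).N = N at R hNn hsurj hne
    subst hNn
    exact ⟨R, hsurj, hne⟩
  -- every component has dimension `n`
  have hRker : ∀ {N : ℕ} (R : (MonoidAlgebra S.K H ⧸ annIdeal e) →ₐ[S.K]
      Matrix (Fin N) (Fin N) S.K), Function.Surjective R → ∀ x, π x = 0 → R x = 0 :=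
    fun R hR x hx => eq_zero_of_forall_isNilpotent R hR fun y =>
      hnilπ _ (by rw [map_mul, hx, zero_mul])
  have hgen : ∀ i, ∃ a, annMap e a = F i ∧ a * e = a ∧ mapG φ a ≠ 0 := by
    intro i
    obtain ⟨a, ha⟩ := annMap_surjective (F i)
    refine ⟨a * e, by rw [annMap_mul_self hee, ha], by rw [mul_assoc, hee], fun h0 => ?_⟩
    have h := hsec _ h0
    rw [annMap_mul_self hee, ha, hπF] at h
    haveI := hdm i
    have h' := congrFun h i
    rw [Pi.single_eq_same, Pi.zero_apply] at h'
    exact one_ne_zero (congrFun (congrFun h' ⟨0, Nat.pos_of_ne_zero (hdm i).out⟩)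
      ⟨0, Nat.pos_of_ne_zero (hdm i).out⟩)
  have hfac : ∀ i, ∃ R : (MonoidAlgebra S.K H ⧸ annIdeal e) →ₐ[S.K]
      Matrix (Fin n) (Fin n) S.K, Function.Surjective R ∧ R (F i) ≠ 0 := by
    intro i
    obtain ⟨a, haF, hae, hne⟩ := hgen i
    have haa : mapG φ a * mapG φ a = mapG φ a := by
      have h := (hF2 i i).trans (if_pos rfl)
      rw [← haF, ← map_mul, annMap_eq_iff, hae, mul_assoc, hae] at h
      rw [← map_mul, h]
    obtain ⟨W, hW, hWg⟩ := S.exists_lift_idem haa
    obtain ⟨η, hη⟩ : ∃ η, valAlg S (repQ η).ρ W ≠ 0 := by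
      by_contra h
      push Not at h
      refine hne ?_
      rw [← hWg, eq_zero_of_forall_valAlg S (fun η => (repQ η).ρ)
        (fun η => (repQ η).trace_eq) h, map_zero]
    obtain ⟨R, hR, hRx⟩ := hquot η a (fun h0 => hη
      ((eq_zero_or_one_of_map S (by rw [← map_mul, hW])).1
        (by rw [map_valAlg, hWg, ← hae, h0])))
    exact ⟨R, hR, haF ▸ hRx⟩
  have hdimi : ∀ i, dm i = n := by
    intro i
    obtain ⟨R, hR, hRi⟩ := hfac i
    refine le_antisymm ?_ ?_
    · have h := hcount R {i} (fun j hj => by rwa [Finset.mem_singleton.1 hj])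
      simpa using h
    -- the component maps onto
    have hscal : R (F i) = 1 := by
      obtain ⟨c, hc'⟩ : ∃ c : S.K, Matrix.scalar (Fin n) c = R (F i) := by
        refine Matrix.mem_range_scalar_iff_commute_single'.2 fun k l => ?_
        obtain ⟨y, hy⟩ := hR (Matrix.single k l 1)
        rw [← hy]
        show R y * R (F i) = R (F i) * R y
        rw [← map_mul, ← map_mul, ← sub_eq_zero, ← map_sub]
        refine hRker R hR _ ?_
        rw [map_sub, map_mul, map_mul, hπF, sub_eq_zero]
        funext k
        by_cases hk : k = i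
        · subst hk; simp
        · simp [Pi.single_eq_of_ne hk]
      have h2 : R (F i) * R (F i) = R (F i) := by rw [← map_mul, (hF2 i i).trans (if_pos rfl)]
      rw [← hc', ← map_mul] at h2
      have hc2 : c * c = c := by
        have := congrFun (congrFun h2 ⟨0, hn⟩) ⟨0, hn⟩
        simpa using this
      rcases mul_left_eq_self₀.1 hc2 with rfl | rfl
      · rw [← hc', map_one]
      · exact absurd (hc'.symm.trans (map_zero _)) hRi
    obtain ⟨sec, hsec'⟩ := π.toLinearMap.exists_rightInverse_of_surjective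
      (LinearMap.range_eq_top.2 hπ)
    let L : Matrix (Fin (dm i)) (Fin (dm i)) S.K →ₗ[S.K] Matrix (Fin n) (Fin n) S.K :=
      R.toLinearMap.comp (sec.comp (LinearMap.single S.K
        (fun i : Fin m => Matrix (Fin (dm i)) (Fin (dm i)) S.K) i))
    have hL : Function.Surjective L := fun X => by
      obtain ⟨y, rfl⟩ := hR X
      refine ⟨π y i, ?_⟩
      rw [← mul_one (R y), ← hscal, ← map_mul, ← sub_eq_zero]
      show R (sec (Pi.single i (π y i))) - R (y * F i) = 0
      rw [← map_sub]
      refine hRker R hR _ ?_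
      rw [map_sub, show π (sec (Pi.single i (π y i))) = Pi.single i (π y i) from
        LinearMap.congr_fun hsec' _, map_mul, hπF, sub_eq_zero]
      funext k
      by_cases hk : k = i
      · subst hk; simp
      · simp [Pi.single_eq_of_ne hk]
    have h := LinearMap.finrank_le_finrank_of_surjective hL
    simp only [Module.finrank_matrix, Fintype.card_fin, Module.finrank_self, mul_one] at h
    nlinarith
  -- the idempotents act as scalars on the block
  have h01 : ∀ {N : ℕ} (R : (MonoidAlgebra S.K H ⧸ annIdeal e) →ₐ[S.K]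
      Matrix (Fin N) (Fin N) S.K), N = n → ∀ i, R (F i) = 0 ∨ R (F i) = 1 := by
    intro N R hN i
    by_cases hi : R (F i) = 0
    · exact Or.inl hi
    refine Or.inr ?_
    have hz : ∀ k, k ≠ i → R (F k) = 0 := fun k hk => by
      by_contra h
      have h' := hcount R {i, k} (fun j hj => by
        rcases Finset.mem_insert.1 hj with rfl | hj
        · exact hi
        · rwa [Finset.mem_singleton.1 hj])
      rw [Finset.sum_pair (Ne.symm hk), hdimi, hdimi] at h'
      omega
    have h := congrArg R hFone
    rwa [map_sum, map_one, Finset.sum_eq_single i (fun k _ hk => hz k hk)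
      (fun h => absurd (Finset.mem_univ _) h)] at h
  -- one component
  have hone : ∀ i j : Fin m, i = j := by
    intro i j
    by_contra hij
    have hall : ∀ k, ∀ χ (hχ : χ ∈ B) (R : (MonoidAlgebra S.K H ⧸ annIdeal e) →ₐ[S.K]
        Matrix (Fin (rep χ).N) (Fin (rep χ).N) S.K),
        (∀ a, R (annMap e a) = redAlg S (rep χ).ρ a) → R (F k) = 1 := by
      intro k
      obtain ⟨a, haF, hae, hne⟩ := hgen k
      have ha2 : a * a = a := by
        have h := (hF2 k k).trans (if_pos rfl)
        rwa [← haF, ← map_mul, annMap_eq_iff, hae, mul_assoc, hae] at h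
      obtain ⟨W, hW, hWa⟩ := S.exists_lift_idem ha2
      have hsc : ∀ χ : IrrCharacter H, valAlg S (rep χ).ρ W = 0 ∨ valAlg S (rep χ).ρ W = 1 := by
        intro χ
        have hW' := eq_zero_or_one_of_map S (show valAlg S (rep χ).ρ W * valAlg S (rep χ).ρ W =
          valAlg S (rep χ).ρ W by rw [← map_mul, hW])
        by_cases hχ : χ ∈ B
        · obtain ⟨R, hN, hR⟩ := hfactor (rep χ).ρ hχ (rep χ).trace_eq
          rcases h01 R hN k with h | h
          · exact Or.inl (hW'.1 (by rw [map_valAlg, hWa, ← hR, haF, h]))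
          · exact Or.inr (hW'.2 (by rw [map_valAlg, hWa, ← hR, haF, h]))
        · refine Or.inl (hW'.1 ?_)
          rw [map_valAlg, hWa, ← hae, map_mul, redAlg_eK S hB (rep χ).ρ (rep χ).trace_eq,
            if_neg hχ, mul_zero]
      have hWc : IsClassElem W := isClassElem_iff_commute.2 fun h => sub_eq_zero.1
        (eq_zero_of_forall_valAlg S (fun χ => (rep χ).ρ) (fun χ => (rep χ).trace_eq) fun χ => by
          rcases hsc χ with h0 | h0 <;> simp [map_sub, map_mul, h0])
      let x : IrrCharacter H → S.V := fun χ => if valAlg S (rep χ).ρ W = 0 then 0 else 1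
      have hx : ∀ χ ∈ B, (x χ : ℂ) = omega (χ : H → ℂ) (mapRingHom H S.V.subtype W) := by
        intro χ hχ
        have h := trace_valAlg_eq_omega S (rep χ).ρ (rep χ).trace_eq W
        have hne' : ((rep χ).N : ℂ) ≠ 0 := by rw [hN χ hχ]; exact Nat.cast_ne_zero.2 hn.ne'
        refine mul_left_cancel₀ hne' ?_
        rw [← h]
        rcases hsc χ with h0 | h0
        · simp [x, h0]
        · have h1 : valAlg S (rep χ).ρ W ≠ 0 := by
            rw [h0]
            intro h10
            have hi : (1 : S.V) = 0 := congrFun (congrFun h10 ⟨0, by rw [hN χ hχ]; exact hn⟩)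
              ⟨0, by rw [hN χ hχ]; exact hn⟩ |> (fun h => by simp at h)
            exact one_ne_zero hi
          rw [show x χ = 1 from if_neg h1, h0, Matrix.trace_one, Fintype.card_fin]
          simp
      -- some member sees the idempotent
      obtain ⟨χ1, hχ1, hx1⟩ : ∃ χ, χ ∈ B ∧ valAlg S (rep χ).ρ W ≠ 0 := by
        by_contra hcon
        push Not at hcon
        apply hne
        suffices hW0 : W = 0 by rw [← hWa, hW0, map_zero, map_zero]
        refine eq_zero_of_forall_valAlg S (fun χ => (rep χ).ρ) (fun χ => (rep χ).trace_eq) fun χ => ?_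
        by_cases hχ : χ ∈ B
        · exact hcon χ hχ
        · refine (eq_zero_or_one_of_map S (show valAlg S (rep χ).ρ W * valAlg S (rep χ).ρ W =
            valAlg S (rep χ).ρ W by rw [← map_mul, hW])).1 ?_
          rw [map_valAlg, hWa, ← hae, map_mul, redAlg_eK S hB (rep χ).ρ (rep χ).trace_eq,
            if_neg hχ, mul_zero]
      intro χ hχ R hR
      rw [← haF, hR, ← hWa, ← map_valAlg]
      rcases hsc χ with h0 | h0
      · exfalso
        have h := res_eq_of_omega S hB hχ hχ1 hWc (hx χ hχ) (hx χ1 hχ1)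
        simp [x, h0, hx1] at h
      · rw [h0]
        exact Matrix.map_one _ (map_zero _) (map_one _)
    obtain ⟨R, hNn, hR⟩ := hfactor (rep χ0).ρ hχ0 (rep χ0).trace_eq
    have h := congrArg R ((hF2 i j).trans (if_neg hij))
    rw [map_mul, map_zero, hall i χ0 hχ0 R hR, hall j χ0 hχ0 R hR, one_mul] at h
    have hpos : 0 < (rep χ0).N := by omega
    exact one_ne_zero (congrFun (congrFun h ⟨0, hpos⟩) ⟨0, hpos⟩)
  obtain rfl : m = 1 := by
    rcases Nat.lt_or_ge m 2 with h | h
    · rcases Nat.eq_zero_or_pos m with rfl | h'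
      · exfalso
        obtain ⟨R, hNn, hR⟩ := hfactor (rep χ0).ρ hχ0 (rep χ0).trace_eq
        have h1 := congrArg R hFone
        have hpos : 0 < (rep χ0).N := by omega
        rw [Finset.univ_eq_empty, Finset.sum_empty, map_zero, map_one] at h1
        exact one_ne_zero (congrFun (congrFun h1.symm ⟨0, hpos⟩) ⟨0, hpos⟩)
      · omega
    · exact absurd (Fin.mk.inj_iff.1 (hone ⟨0, by omega⟩ ⟨1, by omega⟩)) zero_ne_one
  obtain rfl : dm 0 = n := hdimi 0
  -- dimensions
  let evl : (Π i, Matrix (Fin (dm i)) (Fin (dm i)) S.K) →ₐ[S.K]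
      Matrix (Fin (dm 0)) (Fin (dm 0)) S.K := Pi.evalAlgHom _ _ 0
  have hkk : ∀ x, evl (π x) = 0 ↔ π x = 0 := fun x =>
    ⟨fun h => funext fun i => by
      obtain rfl := Subsingleton.elim i 0
      exact h, fun h => by rw [h, map_zero]⟩
  set eR : MonoidAlgebra (locRing M) H :=
    (idemLoc M B (memLocalRing_blockCoeff hB) : MonoidAlgebra (locRing M) H) with heR
  have heRi : eR * eR = eR := congrArg Subtype.val (idemLoc_mul_self (memLocalRing_blockCoeff hB))
  have heRc : IsClassElem eR := (idemLoc M B (memLocalRing_blockCoeff hB)).2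
  have heK : e = mapRingHom H (S.res.comp S.ιV) eR := by
    refine MonoidAlgebra.ext (Finsupp.ext fun g => ?_)
    simp only [he, eK, eV, coeff_mapRingHom]
    rfl
  obtain ⟨r, hr⟩ := exists_rank_of_idempotent (regMat_mul_self heRi)
  obtain ⟨r', hr'⟩ := exists_rank_of_idempotent (clsMat_mul_self heRc heRi)
  have hr1 : r = Nat.card B * dm 0 ^ 2 := by
    have h := (hr ℂ (locRing M).subtype).2
    rw [regMat_map, heR, map_idemLoc, trace_regMat_blockIdem, finsum_mem_eq_sum_blockFinset,
      Finset.sum_congr rfl (fun χ hχ => by rw [hdeg χ (mem_blockFinset.1 hχ)]), Finset.sum_const,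
      nsmul_eq_mul] at h
    have hcard : (blockFinset B).card = Nat.card B := by
      rw [← Nat.card_eq_finsetCard]
      exact Nat.card_congr (Equiv.subtypeEquivRight fun χ => mem_blockFinset)
    rw [hcard] at h
    exact_mod_cast h.symm
  have hr2 : r' = Nat.card B := by
    have h := (hr' ℂ (locRing M).subtype).2
    rw [clsMat_map, heR, map_idemLoc, trace_clsMat_blockIdem] at h
    exact_mod_cast h.symm
  have hdim : finrank S.K (MonoidAlgebra S.K H ⧸ annIdeal e) = Nat.card B * dm 0 ^ 2 := by
    rw [finrank_annQuot, ← hr1, ← (hr S.K (S.res.comp S.ιV)).1, regMat_map, ← heK]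
  have hcq : finrank S.K ((MonoidAlgebra S.K H ⧸ annIdeal e) ⧸
      commSpan S.K (MonoidAlgebra S.K H ⧸ annIdeal e)) = Nat.card B := by
    rw [finrank_annQuot_comm hec hee, ← hr2, ← (hr' S.K (S.res.comp S.ιV)).1, clsMat_map, ← heK]
  obtain ⟨ε, hεtr, hnd⟩ := exists_symm_form hec hee
  have hnilev : IsNilpotent (RingHom.ker (evl.comp π)) := by
    have : RingHom.ker (evl.comp π) = RingHom.ker π := by
      ext x
      simp only [RingHom.mem_ker, AlgHom.comp_apply]
      exact hkk x
    rwa [this]
  have hmem := ker_le_central_mul (evl.comp π) hn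
    (fun z => by
      obtain ⟨x, hx⟩ := hπ (Pi.single 0 z)
      exact ⟨x, by simp [evl, hx]⟩) hnilev hdim hcq ε hεtr hnd
    (x := annMap e (single v 1 - 1)) (by
      rw [AlgHom.comp_apply, map_sub, map_one, map_sub, hπv v hv, map_one, sub_self, map_zero])
  -- back to the group algebra
  suffices ∀ w ∈ Submodule.span S.K {w | ∃ z y : MonoidAlgebra S.K H ⧸ annIdeal e,
      (∀ b, z * b = b * z) ∧ (evl.comp π) z = 0 ∧ w = z * y}, ∀ a, annMap e a = w →
      a * e ∈ Submodule.span S.K
        {w | ∃ z y : MonoidAlgebra S.K H, IsClassElem z ∧ mapG φ z = 0 ∧ w = z * y} from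
    this _ hmem _ rfl
  intro w hw
  induction hw using Submodule.span_induction with
  | mem w hw =>
    obtain ⟨z, y, hz, hz0, rfl⟩ := hw
    intro a ha
    obtain ⟨z', rfl⟩ := annMap_surjective z
    obtain ⟨y', rfl⟩ := annMap_surjective y
    rw [← map_mul, annMap_eq_iff] at ha
    refine Submodule.subset_span ⟨z' * e, y', isClassElem_iff_commute.2 fun h => ?_, ?_, ?_⟩
    · have h1 := hz (annMap e (single h 1))
      rw [← map_mul, ← map_mul, annMap_eq_iff] at h1
      show _ * _ = _ * _
      rw [← mul_assoc, ← h1, mul_assoc, mul_assoc, (hec.commute (single h 1)).eq]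
    · rw [AlgHom.comp_apply, hkk] at hz0
      have hx : ∀ η, redAlg S (repQ η).ρ (mapG φ (z' * e)) = 0 := fun η => by
        by_contra hne
        obtain ⟨R, hR, hRz⟩ := hquot η z' hne
        exact hRz (hRker R hR _ hz0)
      choose c hc' using fun g => IsLocalRing.residue_surjective (R := S.V) (z'.coeff g)
      have hlift : mapRingHom H S.res (ofFun c * eV S B hB) = z' * e := by
        rw [map_mul]
        congr 1
        exact MonoidAlgebra.ext (Finsupp.ext fun g => by
          rw [coeff_mapRingHom, coeff_ofFun]; exact hc' g)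
      rw [← hlift, ← map_res_mapV]
      refine map_res_eq_zero_of_full S hM repQ _ (fun η hη => ?_) fun η => by
        rw [map_res_mapV, hlift, hx η]
      rw [valAlg_mapV, map_mul] at hη
      let θ : IrrCharacter H :=
        ⟨fun h => (η : Q → ℂ) (φ h), CharTheory.isIrrCharacter_comp η.2 hφ⟩
      by_cases hθ : θ ∈ B
      · rw [← hfull, ← hdeg θ hθ]
        simp [θ, charDegree]
      · rw [valAlg_eV S hB ((repQ η).ρ.comp φ) (χ := θ) (fun h => (repQ η).trace_eq (φ h)),
          if_neg hθ, mul_zero] at hη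
        exact absurd rfl hη
    · rw [ha, mul_assoc z' e, (hec.commute y').eq.symm, mul_assoc z' y']
  | zero =>
    intro a ha
    rw [annMap_eq_zero.1 ha]
    exact Submodule.zero_mem _
  | add x y _ _ hx hy =>
    intro a ha
    obtain ⟨x', rfl⟩ := annMap_surjective x
    obtain ⟨y', rfl⟩ := annMap_surjective y
    rw [← map_add, annMap_eq_iff, add_mul] at ha
    exact ha ▸ Submodule.add_mem _ (hx _ rfl) (hy _ rfl)
  | smul c x _ hx =>
    intro a ha
    obtain ⟨x', rfl⟩ := annMap_surjective x
    rw [← map_smul, annMap_eq_iff, smul_mul_assoc] at ha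
    exact ha ▸ Submodule.smul_mem _ c (hx _ rfl)

end CfsgLib.EqualDegree
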