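import Cfsg.Agent.Lib.EqualDegree.Reps
import Cfsg.Agent.Lib.CharDegreesTheory.InflationBlocks
import Cfsg.Agent.Lib.BrauerPairs.Domination
import Cfsg.Agent.Lib.BrauerPairs.Scalar

/-!
# The image of a block of a subgroup modulo a central `p`-subgroup

The image is a block, so over any field containing the residue field every central element of the
image subgroup is a scalar up to a nilpotent there.
-/

set_option autoImplicit false
set_option linter.unusedSectionVars false
set_option linter.style.haveILetI false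

noncomputable section

namespace CfsgLib.EqualDegree

open Cfsg CfsgLib.Blocks MonoidAlgebra CfsgLib.BrauerPairs CfsgLib.Jordan.CyclicDefect

variable {p : ℕ} [Fact p.Prime] {M : Ideal AlgInt} [M.IsPrime]

theorem mapRingHom_mapG {k l : Type*} [Field k] [Field l] (f : k →+* l) {A B : Type*} [Group A]
    [Group B] (φ : A →* B) (x : MonoidAlgebra k A) :
    mapRingHom B f (mapG φ x) = mapG φ (mapRingHom A f x) := by
  induction x using MonoidAlgebra.induction_linear with
  | zero => simp
  | add a b ha hb => simp only [map_add, ha, hb]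
  | single g c =>
    rw [CharDegreesTheory.mapG_single_eq, mapRingHom_single, mapRingHom_single,
      CharDegreesTheory.mapG_single_eq]

/-- The image of a block modulo a central `p`-subgroup is a block. -/
theorem isBlockIdem_mapG_top (hM : IsPModular p M) {A : Type*} [Group A] [Finite A] {B : Type*}
    [Group B] [Finite B] {ψ : A →* B} (hψ : Function.Surjective ψ)
    (hker : ψ.ker ≤ Subgroup.center A) (hkp : IsPGroup p ψ.ker)
    {f : MonoidAlgebra (Res M) A} (hf : IsBlockIdem (⊤ : Subgroup A) f) :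
    IsBlockIdem (⊤ : Subgroup B) (mapG ψ f) := by
  classical
  haveI := charP_res hM
  obtain ⟨b, hb, rfl⟩ := exists_isPBlock_of_isBlockIdem hf
  set g := mapG ψ (redElem M (blockCoeff b)) with hg
  have hfix := (mem_ctr.1 hf.mem).2
  have hgc : g ∈ ctr (Res M) (⊤ : Subgroup B) := CharDegreesTheory.mapG_mem_ctr_top hψ hfix
  have hgg : g * g = g := by rw [hg, ← map_mul, hf.mul_self]
  have hg0 : g ≠ 0 := CharDegreesTheory.mapG_ne_zero_of_idem hψ hkp hf.mul_self hf.ne_zero
    fun u _ => commute_of_fixedBy_of_supp hfix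
      (fun x hx => absurd (Subgroup.mem_top x) hx) |>.symm
  have huniq : ∀ f₁ f₂ : MonoidAlgebra (Res M) B, IsBlockIdem (⊤ : Subgroup B) f₁ →
      IsBlockIdem (⊤ : Subgroup B) f₂ → g * f₁ ≠ 0 → g * f₂ ≠ 0 → f₁ = f₂ := by
    have key : ∀ f₁ : MonoidAlgebra (Res M) B, IsBlockIdem (⊤ : Subgroup B) f₁ → g * f₁ ≠ 0 →
        ∃ c : Set (IrrCharacter B), IsPBlock M c ∧ redElem M (blockCoeff c) = f₁ ∧
          ∀ θ ∈ c, inflIrr hψ θ ∈ b := by
      intro f₁ hf₁ hne
      obtain ⟨c, hc, rfl⟩ := exists_isPBlock_of_isBlockIdem hf₁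
      refine ⟨c, hc, rfl, fun θ hθ => ?_⟩
      have h1 : g * redElem M (blockCoeff c) = redElem M (blockCoeff c) := by
        rw [(ctr_commute hgc hf₁.mem).eq] at hne ⊢
        exact (hf₁.2.2.2 g hgc hgg).resolve_left hne
      rw [← omegaRes_redElem_eq_one_iff (M := M) hb,
        CharDegreesTheory.omegaRes_inflate hψ (χ := θ) rfl,
        omegaRes_idem_eq_one_iff hc hθ (Subtype.ext (by
          show mapG ψ _ * mapG ψ _ = mapG ψ _
          rw [← map_mul, ← Subalgebra.coe_mul, idemRes_mul_self]))]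
      apply Subtype.ext
      show mapG ψ _ * _ = _
      rw [← redElem_blockCoeff hb, ← redElem_blockCoeff hc]
      exact h1
    intro f₁ f₂ h₁ h₂ hn₁ hn₂
    obtain ⟨c₁, hc₁, rfl, hin₁⟩ := key f₁ h₁ hn₁
    obtain ⟨c₂, hc₂, rfl, hin₂⟩ := key f₂ h₂ hn₂
    obtain ⟨θ₁, hθ₁⟩ := isPBlock_nonempty hc₁
    obtain ⟨θ₂, hθ₂⟩ := isPBlock_nonempty hc₂
    rw [isPBlock_eq_of_mem hc₁ hc₂ (mem_of_sameBlock hc₁ hθ₁
      (sameBlock_of_inflate hM hψ hker hkp hb (hin₁ θ₁ hθ₁) (hin₂ θ₂ hθ₂))) hθ₂]
  obtain ⟨f₁, hf₁, hne⟩ := exists_isBlockIdem_mul_ne_zero (k := Res M) (⊤ : Subgroup B) hg0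
  suffices g = f₁ by rwa [this]
  calc g = g * ∑ e ∈ blockIdems (Res M) (⊤ : Subgroup B), e := by rw [sum_blockIdems, mul_one]
    _ = g * f₁ := by
        rw [Finset.mul_sum, Finset.sum_eq_single f₁]
        · intro e he hne'
          by_contra h
          exact hne' (huniq e f₁ (mem_blockIdems.1 he) hf₁ h hne)
        · exact fun h => absurd (mem_blockIdems.2 hf₁) h
    _ = f₁ := by
        rw [(ctr_commute hgc hf₁.mem).eq] at hne ⊢
        exact (hf₁.2.2.2 g hgc hgg).resolve_left hne

variable (S : Above M) {G : Type*} [Group G] [Finite G] {Q : Type*} [Group Q] [Finite Q]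

/-- In the image of a block modulo a central `p`-subgroup central elements are scalars up to
nilpotents. -/
theorem exists_scalar_image (hM : IsPModular p M) (φ : G →* Q) {C0 : Subgroup G}
    (hker : ∀ u ∈ φ.ker, u ∈ C0 → ∀ c ∈ C0, c * u = u * c) (hkp : IsPGroup p φ.ker)
    {f : MonoidAlgebra (Res M) G} (hf : IsBlockIdem C0 f) {F : MonoidAlgebra S.K Q}
    (hF : F ∈ ctr S.K (C0.map φ)) :
    ∃ c : S.K, IsNilpotent ((F - c • 1) * mapRingHom Q S.κ (mapG φ f)) := by
  classical
  haveI : M.IsMaximal := hM.2.1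
  haveI := isAlgClosed_res (M := M)
  haveI := charP_res hM
  set CQ := C0.map φ with hCQ
  haveI := Fintype.ofFinite (ConjClasses CQ)
  let ψ : C0 →* CQ := φ.subgroupMap C0
  have hψs : Function.Surjective ψ := φ.subgroupMap_surjective C0
  have hψ1 : ∀ u : C0, u ∈ ψ.ker → (u : G) ∈ φ.ker := fun u hu => by
    rw [MonoidHom.mem_ker] at hu ⊢
    exact congrArg Subtype.val hu
  have hψk : ψ.ker ≤ Subgroup.center C0 := fun u hu => Subgroup.mem_center_iff.2 fun c =>
    Subtype.ext (hker u (hψ1 u hu) u.2 c c.2)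
  have hψp : IsPGroup p ψ.ker := fun u => by
    obtain ⟨j, hj⟩ := hkp ⟨_, hψ1 u u.2⟩
    exact ⟨j, Subtype.ext (Subtype.ext (congrArg Subtype.val hj :))⟩
  have hblk : IsBlockIdem CQ (mapG φ f) := by
    rw [← map_top_subtype C0] at hf
    obtain ⟨f', hf', rfl⟩ := exists_of_isBlockIdem_map C0.subtype_injective hf
    have hcomp : mapG φ (mapG C0.subtype f') = mapG CQ.subtype (mapG ψ f') := by
      clear hf hf'
      induction f' using MonoidAlgebra.induction_linear with
      | zero => simp
      | add a b ha hb => simp only [map_add, ha, hb]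
      | single g c =>
        simp only [CharDegreesTheory.mapG_single_eq]
        rfl
    rw [hcomp]
    have h := (isBlockIdem_mapG_iff CQ.subtype_injective).2 (isBlockIdem_mapG_top hM hψs hψk hψp hf')
    rwa [map_top_subtype] at h
  obtain ⟨F', rfl⟩ : ∃ F', mapG CQ.subtype F' = F := by
    have h := (mem_ctr.1 hF).1
    rw [← map_top_subtype CQ] at h
    obtain ⟨F', -, h'⟩ := exists_mapG_eq_of_mem_supp CQ.subtype_injective h
    exact ⟨F', h'⟩
  have hF' : IsClassElem F' := mem_classAlg.1 (mem_classAlg_iff_ctr.2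
    ((mapG_mem_ctr_iff CQ.subtype_injective).1 (by rwa [map_top_subtype])))
  have hz : ∀ c : ConjClasses CQ, mapG CQ.subtype (classSum (Res M) c.out) ∈ ctr (Res M) CQ := by
    intro c
    have h := (mapG_mem_ctr_iff (k := Res M) CQ.subtype_injective).2
      (mem_classAlg_iff_ctr.1 (mem_classAlg.2 (isClassElem_classSum (R := Res M) c.out)))
    rwa [map_top_subtype] at h
  choose a ha using fun c => hblk.exists_scalar (hz c)
  set E := mapRingHom Q S.κ (mapG φ f)
  refine ⟨∑ c : ConjClasses CQ, F'.coeff c.out * S.κ (a c), ?_⟩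
  have hterm : ∀ c : ConjClasses CQ, (mapG CQ.subtype (classSum S.K c.out) - S.κ (a c) • 1) * E =
      mapRingHom Q S.κ ((mapG CQ.subtype (classSum (Res M) c.out) - a c • 1) * mapG φ f) := by
    intro c
    rw [map_mul, map_sub, mapRingHom_mapG S.κ CQ.subtype, map_classSum]
    congr 2
    refine MonoidAlgebra.ext (Finsupp.ext fun x => ?_)
    simp [MonoidAlgebra.one_def, Finsupp.single_apply]
  have hsum : (mapG CQ.subtype F' - (∑ c : ConjClasses CQ, F'.coeff c.out * S.κ (a c)) • 1) * E =
      ∑ c : ConjClasses CQ, F'.coeff c.out •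
        ((mapG CQ.subtype (classSum S.K c.out) - S.κ (a c) • 1) * E) := by
    have h := congrArg (mapG CQ.subtype) hF'.eq_sum_classSum
    rw [h]
    simp only [map_sum, map_smul, Finset.sum_smul, ← Finset.sum_sub_distrib, Finset.sum_mul,
      mul_smul, ← smul_sub, smul_mul_assoc]
  rw [hsum]
  have hctr : ∀ c : ConjClasses CQ, F'.coeff c.out •
      ((mapG CQ.subtype (classSum S.K c.out) - S.κ (a c) • 1) * E) ∈ ctr S.K CQ := by
    intro c
    refine (ctr S.K CQ).smul_mem ?_ _
    rw [hterm]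
    have h := mul_mem (sub_mem (hz c) ((ctr (Res M) CQ).smul_mem (one_mem _) (a c))) hblk.mem
    refine mem_ctr.2 ⟨fun g hg => ?_, fun h' hh' => ?_⟩
    · rw [coeff_mapRingHom, (mem_ctr.1 h).1 g hg, map_zero]
    · refine MonoidAlgebra.ext (Finsupp.ext fun g => ?_)
      have h1 := congrArg (fun w : MonoidAlgebra (Res M) Q => w.coeff g) ((mem_ctr.1 h).2 h' hh')
      rw [coeff_conjA] at h1
      rw [coeff_conjA, coeff_mapRingHom, coeff_mapRingHom, h1]
  exact Commute.isNilpotent_sum (fun c _ => IsNilpotent.smul (by rw [hterm]; exact (ha c).map _) _)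
    fun i j _ _ => ctr_commute (hctr i) (hctr j)

end CfsgLib.EqualDegree
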