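import Cfsg.Agent.Lib.CharDegreesTheory.InflationBlocks
import Mathlib.RingTheory.Noetherian.Nilpotent

/-!
# A derivation-like functional on the kernel of a quotient map

Let `φ : H → Q` be onto with elementary abelian kernel `V` whose centraliser `C` has index prime to
`p`. If every `(v - 1) e` is spanned by multiples of central elements vanishing in `Q` and the
image of `e` lies under a central idempotent which is local on the centre of `k[φ C]`, then `H`
centralises `V`.
-/

set_option autoImplicit false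
set_option linter.unusedSectionVars false
set_option linter.style.haveILetI false

noncomputable section

namespace CfsgLib.EqualDegree

open MonoidAlgebra CfsgLib.BrauerPairs CfsgLib.Blocks

variable {k : Type*} [Field k] {p : ℕ} [Fact p.Prime] [CharP k p]

section Sums

variable {U : Type*} [CommGroup U] [Fintype U] (f : U → k)

/-- A sum of an additive function against a translation invariant one. -/
theorem sum_mul_invariant (hf : ∀ a b, f (a * b) = f a + f b) (W : Subgroup U) [Fintype W]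
    [Fintype (U ⧸ W)] (g : U → k) (hg : ∀ a, ∀ w ∈ W, g (a * w) = g a)
    (hW : (Fintype.card W : k) = 0) :
    ∑ u, g u * f u = (∑ q : U ⧸ W, g q.out) * ∑ w : W, f w := by
  classical
  have hbij : Function.Bijective fun x : (U ⧸ W) × W => x.1.out * (x.2 : U) := by
    refine ⟨fun x y h => ?_, fun u => ?_⟩
    · have h1 : x.1 = y.1 := by
        have := congrArg (QuotientGroup.mk (s := W)) h
        simpa [QuotientGroup.mk_mul_of_mem] using this
      simp only [h1, mul_right_inj] at h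
      exact Prod.ext h1 (Subtype.ext h)
    · exact ⟨(QuotientGroup.mk u, ⟨(QuotientGroup.mk u : U ⧸ W).out⁻¹ * u,
        QuotientGroup.eq.1 (Quotient.out_eq' _)⟩), mul_inv_cancel_left _ _⟩
  rw [← hbij.sum_comp (fun u => g u * f u), Fintype.sum_prod_type, Finset.sum_mul]
  refine Finset.sum_congr rfl fun q _ => ?_
  simp only [hf, hg _ _ (Subtype.mem _), ← Finset.mul_sum, Finset.sum_add_distrib,
    Finset.sum_const, Finset.card_univ, nsmul_eq_mul, hW, zero_mul, zero_add]

/-- An additive function on an elementary abelian group of order at least three adds up to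
zero. -/
theorem sum_eq_zero_of_exponent (hf : ∀ a b, f (a * b) = f a + f b) (hU : ∀ u : U, u ^ p = 1)
    (h3 : 3 ≤ Fintype.card U) : ∑ u, f u = 0 := by
  classical
  have hf1 : f 1 = 0 := by
    have h := hf 1 1
    rw [one_mul] at h
    simpa using h
  have hfinv : ∀ u, f u⁻¹ = - f u := fun u => by
    have h := hf u⁻¹ u
    rw [inv_mul_cancel, hf1] at h
    exact eq_neg_of_add_eq_zero_left h.symm
  rcases (Fact.out (p := p.Prime)).eq_two_or_odd with h2 | hodd
  · subst h2
    obtain ⟨a, ha⟩ := Fintype.exists_ne_of_one_lt_card (by omega) (1 : U)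
    have hord : orderOf a = 2 := orderOf_eq_prime (hU a) ha
    set W := Subgroup.zpowers a
    haveI : Fintype W := Fintype.ofFinite _
    haveI : Fintype (U ⧸ W) := Fintype.ofFinite _
    have hcW : Fintype.card W = 2 := by rw [← Nat.card_eq_fintype_card, Nat.card_zpowers, hord]
    have h := sum_mul_invariant f hf W (fun _ => (1 : k)) (fun _ _ _ => rfl)
      (by rw [hcW]; exact_mod_cast CharP.cast_eq_zero k 2)
    simp only [one_mul, Finset.sum_const, Finset.card_univ, nsmul_eq_mul, mul_one] at h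
    rw [h]
    have hgrp : IsPGroup 2 U := fun u => ⟨1, by rw [pow_one]; exact hU u⟩
    obtain ⟨n, hn⟩ := IsPGroup.iff_card.1 hgrp
    have hn2 : 2 ≤ n := by
      by_contra hlt
      push Not at hlt
      rw [Nat.card_eq_fintype_card] at hn
      interval_cases n <;> omega
    have hq : Fintype.card (U ⧸ W) * 2 = 2 ^ n := by
      rw [← hn, Subgroup.card_eq_card_quotient_mul_card_subgroup W, Nat.card_eq_fintype_card,
        Nat.card_eq_fintype_card, hcW]
    have h2q : 2 ∣ Fintype.card (U ⧸ W) := by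
      obtain ⟨m, rfl⟩ : ∃ m, n = m + 2 := ⟨n - 2, by omega⟩
      exact ⟨2 ^ m, by rw [pow_add] at hq; omega⟩
    rw [(CharP.cast_eq_zero_iff k 2 _).2 h2q, zero_mul]
  · have h : ∑ u, f u = - ∑ u, f u := by
      conv_lhs => rw [← Equiv.sum_comp (Equiv.inv U)]
      rw [← Finset.sum_neg_distrib]
      exact Finset.sum_congr rfl fun u _ => hfinv u
    have h2' : (2 : k) * ∑ u, f u = 0 := by rw [two_mul]; nth_rw 2 [h]; exact add_neg_cancel _
    refine (mul_eq_zero.1 h2').resolve_left fun h0 => ?_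
    have h2 : p ∣ 2 := (CharP.cast_eq_zero_iff k p 2).1 (by exact_mod_cast h0)
    have := (Nat.prime_dvd_prime_iff_eq Fact.out Nat.prime_two).1 h2
    omega

/-- An elementary abelian group has enough additive functions to the prime field. -/
theorem exists_additive_ne_zero {V : Type*} [CommGroup V] (hV : ∀ v : V, v ^ p = 1) {u : V}
    (hu : u ≠ 1) : ∃ f : V → k, (∀ a b, f (a * b) = f a + f b) ∧ f u ≠ 0 := by
  haveI : Module (ZMod p) (Additive V) := AddCommGroup.zmodModule fun x => by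
    refine Additive.toMul.injective ?_
    rw [toMul_nsmul, hV]
    rfl
  have hu' : Additive.ofMul u ≠ 0 := hu
  obtain ⟨f, hf⟩ : ∃ f : Module.Dual (ZMod p) (Additive V), f (Additive.ofMul u) ≠ 0 := by
    by_contra h
    push Not at h
    exact hu' ((Module.forall_dual_apply_eq_zero_iff (ZMod p) _).1 h)
  refine ⟨fun a => ZMod.castHom (dvd_refl p) k (f (Additive.ofMul a)), fun a b => ?_,
    (map_ne_zero _).2 hf⟩
  show ZMod.castHom _ k (f (Additive.ofMul a + Additive.ofMul b)) = _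
  rw [map_add, map_add]

end Sums

variable {H : Type*} [Group H] [Fintype H] {Q : Type*} [Group Q] [Fintype Q] (φ : H →* Q)
  (s : Q → H)

/-- The functional attached to a function on the kernel and a section. -/
def twist (ψ : H → k) : MonoidAlgebra k H →ₗ[k] MonoidAlgebra k Q where
  toFun x := ∑ h, x.coeff h • single (φ h) (ψ (h * (s (φ h))⁻¹))
  map_add' x y := by simp [add_smul, Finset.sum_add_distrib]
  map_smul' c x := by simp [Finset.smul_sum, mul_smul]

theorem twist_apply (ψ : H → k) (x : MonoidAlgebra k H) :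
    twist φ s ψ x = ∑ h, x.coeff h • single (φ h) (ψ (h * (s (φ h))⁻¹)) := rfl

theorem twist_single (ψ : H → k) (g : H) (c : k) :
    twist φ s ψ (single g c) = single (φ g) (c * ψ (g * (s (φ g))⁻¹)) := by
  classical
  rw [twist_apply, Finset.sum_eq_single g]
  · simp
  · intro h _ hh; simp [Ne.symm hh]
  · simp

variable {φ} {s}

/-- Sums over an element vanishing in the quotient of a function of the image. -/
theorem sum_smul_eq_zero {z : MonoidAlgebra k H} (hz : mapG φ z = 0) {A : Type*} [AddCommGroup A]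
    [Module k A] (F : Q → A) : ∑ h, z.coeff h • F (φ h) = 0 := by
  classical
  rw [← Finset.sum_fiberwise Finset.univ φ]
  refine Finset.sum_eq_zero fun q _ => ?_
  rw [Finset.sum_congr rfl (g := fun h => z.coeff h • F q)
    fun h hh => by rw [(Finset.mem_filter.1 hh).2], ← Finset.sum_smul, Finset.sum_filter,
    ← CharDegreesTheory.coeff_mapG_eq_sum φ z q, hz, MonoidAlgebra.coeff_zero, Finsupp.zero_apply,
    zero_smul]

variable (hs : ∀ q, φ (s q) = q)
include hs

theorem mul_inv_section_mem (h : H) : h * (s (φ h))⁻¹ ∈ φ.ker := by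
  rw [MonoidHom.mem_ker, map_mul, map_inv, hs, mul_inv_cancel]

theorem twist_congr {ψ ψ' : H → k} (h : ∀ v ∈ φ.ker, ψ v = ψ' v) :
    twist φ s ψ = twist φ s ψ' := by
  refine LinearMap.ext fun x => ?_
  simp only [twist_apply, h _ (mul_inv_section_mem hs _)]

theorem twist_sum {ι : Type*} (t : Finset ι) (ψ : ι → H → k) (x : MonoidAlgebra k H) :
    twist φ s (fun h => ∑ i ∈ t, ψ i h) x = ∑ i ∈ t, twist φ s (ψ i) x := by
  simp only [twist_apply]
  rw [Finset.sum_comm]
  refine Finset.sum_congr rfl fun h _ => ?_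
  rw [← Finset.smul_sum]
  exact congrArg _ (map_sum (MonoidAlgebra.singleAddHom (φ h)) _ _)

variable {ψ : H → k} (hψ : ∀ v ∈ φ.ker, ∀ w ∈ φ.ker, ψ (v * w) = ψ v + ψ w)
include hψ

theorem twist_sub_one_mul {v : H} (hv : v ∈ φ.ker) (y : MonoidAlgebra k H) :
    twist φ s ψ ((single v 1 - 1) * y) = ψ v • mapG φ y := by
  induction y using MonoidAlgebra.induction_linear with
  | zero => simp
  | add a b ha hb => rw [mul_add, map_add, map_add, ha, hb, smul_add]
  | single g c =>
    have hg : φ (v * g) = φ g := by rw [map_mul, MonoidHom.mem_ker.1 hv, one_mul]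
    rw [sub_mul, one_mul, map_sub, single_mul_single, one_mul, twist_single, twist_single, hg,
      mul_assoc v g, hψ v hv _ (mul_inv_section_mem hs g), CharDegreesTheory.mapG_single_eq,
      MonoidAlgebra.smul_single', ← MonoidAlgebra.single_sub]
    congr 1
    ring

theorem twist_mul {z : MonoidAlgebra k H} (hz : mapG φ z = 0) (y : MonoidAlgebra k H) :
    twist φ s ψ (z * y) = twist φ s ψ z * mapG φ y := by
  induction y using MonoidAlgebra.induction_linear with
  | zero => simp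
  | add a b ha hb => rw [mul_add, map_add, map_add, ha, hb, mul_add]
  | single g c =>
    conv_lhs => rw [show z = ∑ h, z.coeff h • single h 1 from MonoidAlgebra.ext (Finsupp.ext
      fun x => by classical simp [coeff_sum])]
    rw [Finset.sum_mul, map_sum, twist_apply φ s ψ z, Finset.sum_mul, ← sub_eq_zero,
      ← Finset.sum_sub_distrib]
    refine Eq.trans (Finset.sum_congr rfl fun h _ => ?_) (sum_smul_eq_zero hz
      (fun q => single (q * φ g) (c * ψ (s q * g * (s (q * φ g))⁻¹))))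
    rw [smul_mul_assoc, map_smul, smul_mul_assoc, ← smul_sub, single_mul_single, one_mul,
      twist_single, CharDegreesTheory.mapG_single_eq, single_mul_single, ← map_mul]
    congr 1
    have hmem : s (φ h) * g * (s (φ (h * g)))⁻¹ ∈ φ.ker := by
      rw [MonoidHom.mem_ker, map_mul, map_mul, map_inv, hs, hs, map_mul, mul_inv_cancel]
    rw [show h * g * (s (φ (h * g)))⁻¹ =
      h * (s (φ h))⁻¹ * (s (φ h) * g * (s (φ (h * g)))⁻¹) by group,
      hψ _ (mul_inv_section_mem hs h) _ hmem, ← MonoidAlgebra.single_sub]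
    simp only [map_mul]
    congr 1
    ring

theorem twist_conjA {z : MonoidAlgebra k H} (hz : mapG φ z = 0) (g : H) :
    twist φ s ψ (conjA g z) = conjA (φ g) (twist φ s (fun h => ψ (g * h * g⁻¹)) z) := by
  conv_lhs => rw [show z = ∑ h, z.coeff h • single h 1 from MonoidAlgebra.ext (Finsupp.ext
    fun x => by classical simp [coeff_sum])]
  rw [map_sum, map_sum, twist_apply _ _ _ z, map_sum, ← sub_eq_zero, ← Finset.sum_sub_distrib]
  refine Eq.trans (Finset.sum_congr rfl fun h _ => ?_) (sum_smul_eq_zero hz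
    (fun q => single (φ g * q * (φ g)⁻¹) (ψ (g * s q * g⁻¹ * (s (φ g * q * (φ g)⁻¹))⁻¹))))
  rw [map_smul, map_smul, map_smul, ← smul_sub, conjA_single, twist_single, conjA_single]
  congr 1
  have hmem : g * s (φ h) * g⁻¹ * (s (φ g * φ h * (φ g)⁻¹))⁻¹ ∈ φ.ker := by
    simp [MonoidHom.mem_ker, hs, mul_assoc]
  have hmem' : g * (h * (s (φ h))⁻¹) * g⁻¹ ∈ φ.ker :=
    Subgroup.Normal.conj_mem inferInstance _ (mul_inv_section_mem hs h) g
  have heq : φ (g * h * g⁻¹) = φ g * φ h * (φ g)⁻¹ := by simp [mul_assoc]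
  rw [heq, show g * h * g⁻¹ * (s (φ g * φ h * (φ g)⁻¹))⁻¹ = g * (h * (s (φ h))⁻¹) * g⁻¹ *
    (g * s (φ h) * g⁻¹ * (s (φ g * φ h * (φ g)⁻¹))⁻¹) by group, hψ _ hmem' _ hmem, one_mul,
    ← MonoidAlgebra.single_sub]
  congr 1
  ring

theorem coeff_twist_eq_zero (hc : ∀ x ∈ φ.ker, ∀ y ∈ φ.ker, x * y = y * x)
    (hexp : ∀ v ∈ φ.ker, v ^ p = 1) {C : Subgroup H} [C.Normal]
    (hC : ∀ g, g ∈ C ↔ ∀ v ∈ φ.ker, g * v = v * g) (hind : ¬ p ∣ C.index)
    {z : MonoidAlgebra k H} (hzc : IsClassElem z) (hz : mapG φ z = 0) {h : H} (hh : h ∉ C) :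
    (twist φ s ψ z).coeff (φ h) = 0 := by
  classical
  set V := φ.ker with hV
  letI : CommGroup V :=
    { (inferInstance : Group V) with mul_comm := fun a b => Subtype.ext (hc a a.2 b b.2) }
  let N : V →* V :=
    { toFun := fun u => ⟨(u : H) * (h * (u : H)⁻¹ * h⁻¹),
        mul_mem u.2 (Subgroup.Normal.conj_mem inferInstance _ (inv_mem u.2) h)⟩
      map_one' := Subtype.ext (by simp)
      map_mul' := fun a b => Subtype.ext (by
        show (a : H) * b * (h * ((a : H) * b)⁻¹ * h⁻¹) =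
          a * (h * (a : H)⁻¹ * h⁻¹) * (b * (h * (b : H)⁻¹ * h⁻¹))
        have h1 := hc _ (Subgroup.Normal.conj_mem inferInstance _ (inv_mem a.2) h) b b.2
        have h2 := hc _ (inv_mem a.2) _ (inv_mem b.2)
        calc (a : H) * b * (h * ((a : H) * b)⁻¹ * h⁻¹)
            = a * b * (h * (a : H)⁻¹ * h⁻¹ * (h * (b : H)⁻¹ * h⁻¹)) := by
              rw [mul_inv_rev, ← h2]; group
          _ = a * ((b : H) * (h * (a : H)⁻¹ * h⁻¹)) * (h * (b : H)⁻¹ * h⁻¹) := by group
          _ = _ := by rw [← h1]; group) }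
  -- the coefficient
  have hval : (twist φ s ψ z).coeff (φ h) = ∑ v : V, z.coeff ((v : H) * h) * ψ v := by
    have h0 : ∑ v : V, z.coeff ((v : H) * h) = 0 := by
      have h1 := congrArg (fun w : MonoidAlgebra k Q => w.coeff (φ h)) hz
      simp only [CharDegreesTheory.coeff_mapG_eq_sum, MonoidAlgebra.coeff_zero, Finsupp.zero_apply,
        ← Finset.sum_filter] at h1
      rw [← h1]
      refine Finset.sum_bij' (fun (v : V) _ => (v : H) * h)
        (fun g hg => (⟨g * h⁻¹, by
          rw [hV, MonoidHom.mem_ker, map_mul, map_inv, (Finset.mem_filter.1 hg).2,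
            mul_inv_cancel]⟩ : V)) ?_ ?_ ?_ ?_ ?_
      · exact fun v _ => Finset.mem_filter.2 ⟨Finset.mem_univ _, by
          rw [map_mul, MonoidHom.mem_ker.1 v.2, one_mul]⟩
      · exact fun g _ => Finset.mem_univ _
      · exact fun v _ => Subtype.ext (by simp)
      · exact fun g _ => by simp
      · exact fun v _ => rfl
    rw [twist_apply, coeff_finsetSum_apply]
    simp only [coeff_smul, Finsupp.smul_apply, coeff_single, Finsupp.single_apply, smul_eq_mul,
      mul_ite, mul_zero, ← Finset.sum_filter]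
    have h2 : ∑ v : V, z.coeff ((v : H) * h) * ψ v =
        ∑ v : V, z.coeff ((v : H) * h) * ψ ((v : H) * h * (s (φ h))⁻¹) := by
      have : ∀ v : V, ψ ((v : H) * h * (s (φ h))⁻¹) = ψ v + ψ (h * (s (φ h))⁻¹) := fun v => by
        rw [mul_assoc, hψ v v.2 _ (mul_inv_section_mem hs h)]
      simp only [this, mul_add, Finset.sum_add_distrib, ← Finset.sum_mul, h0, zero_mul, add_zero]
    rw [h2]
    refine Finset.sum_bij' (fun g hg => (⟨g * h⁻¹, by
          rw [hV, MonoidHom.mem_ker, map_mul, map_inv, (Finset.mem_filter.1 hg).2,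
            mul_inv_cancel]⟩ : V)) (fun (v : V) _ => (v : H) * h) ?_ ?_ ?_ ?_ ?_
    · exact fun g _ => Finset.mem_univ _
    · exact fun v _ => Finset.mem_filter.2 ⟨Finset.mem_univ _, by
        rw [map_mul, MonoidHom.mem_ker.1 v.2, one_mul]⟩
    · exact fun g _ => by simp
    · exact fun v _ => Subtype.ext (by simp)
    · intro g hg
      simp [(Finset.mem_filter.1 hg).2]
  rw [hval]
  -- invariance under the image of `N`
  set U := N.range with hU
  have hinv : ∀ a : V, ∀ w ∈ U, z.coeff (((a * w : V) : H) * h) = z.coeff ((a : H) * h) := by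
    rintro a w ⟨u, rfl⟩
    have e1 : ((a * N u : V) : H) * h = (u : H) * ((a : H) * h) * (u : H)⁻¹ := by
      show (a : H) * ((u : H) * (h * (u : H)⁻¹ * h⁻¹)) * h = _
      rw [← mul_assoc, hc a a.2 u u.2]
      group
    rw [e1, hzc]
  have hne : U ≠ ⊥ := fun hbot => hh ((hC h).2 fun v hv => by
    have h1 : N ⟨v, hv⟩ = 1 := (Subgroup.eq_bot_iff_forall _).1 hbot _ ⟨_, rfl⟩
    have h2 : v * (h * v⁻¹ * h⁻¹) = 1 := congrArg Subtype.val h1
    calc h * v = v * (h * v⁻¹ * h⁻¹) * (h * v) := by rw [h2, one_mul]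
      _ = v * h := by group)
  haveI : Fintype U := Fintype.ofFinite _
  haveI : Fintype (V ⧸ U) := Fintype.ofFinite _
  have hVp : ∀ v : V, v ^ p = 1 := fun v => Subtype.ext (hexp v v.2)
  have hUp : IsPGroup p U := fun u => ⟨1, Subtype.ext (by rw [pow_one]; exact hVp u)⟩
  obtain ⟨n, hn⟩ := IsPGroup.iff_card.1 hUp
  have hn0 : n ≠ 0 := by
    rintro rfl
    exact hne (Subgroup.eq_bot_of_card_eq U (by rw [hn, pow_zero]))
  have h3 : 3 ≤ Fintype.card U := by
    rw [← Nat.card_eq_fintype_card]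
    by_contra hlt
    have hp2 := (Fact.out (p := p.Prime)).two_le
    have hpn : p ≤ p ^ n := Nat.le_self_pow hn0 p
    have hU2 : Nat.card U = 2 := by omega
    have hp : p = 2 := by omega
    subst hp
    apply hh
    have hfixU : ∀ w : V, w ∈ U → h * (w : H) * h⁻¹ = (w : H) := by
      intro w hw
      obtain ⟨u, rfl⟩ := hw
      have hmem : (⟨h * (N u : H) * h⁻¹,
          Subgroup.Normal.conj_mem inferInstance _ (N u).2 h⟩ : V) ∈ U := by
        refine ⟨⟨h * (u : H) * h⁻¹, Subgroup.Normal.conj_mem inferInstance _ u.2 h⟩,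
          Subtype.ext ?_⟩
        show h * (u : H) * h⁻¹ * (h * (h * (u : H) * h⁻¹)⁻¹ * h⁻¹) =
          h * ((u : H) * (h * (u : H)⁻¹ * h⁻¹)) * h⁻¹
        group
      by_cases hu : N u = 1
      · rw [hu]; simp
      obtain ⟨x, -, hxu⟩ := (Nat.card_eq_two_iff' (1 : U)).1 hU2
      have e1 := hxu ⟨N u, ⟨u, rfl⟩⟩ fun h' => hu (congrArg Subtype.val h')
      have e2 := hxu ⟨_, hmem⟩ fun h' => hu (Subtype.ext (conj_eq_one_iff.1
        (congrArg (fun a : U => ((a : V) : H)) h')))
      exact congrArg (fun a : U => ((a : V) : H)) (e2.trans e1.symm)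
    have h2mem : h * h ∈ C := (hC _).2 fun v hv => by
      set n1 := ((N ⟨v, hv⟩ : V) : H) with hn1
      have hn1v : n1 = v * (h * v⁻¹ * h⁻¹) := rfl
      have hsq : n1⁻¹ * n1⁻¹ = 1 := by
        rw [← mul_inv_rev, ← pow_two, hexp _ (N ⟨v, hv⟩).2, inv_one]
      have hfx : h * n1 * h⁻¹ = n1 := hfixU _ ⟨_, rfl⟩
      have hA : h * v * h⁻¹ = n1⁻¹ * v := by rw [hn1v]; group
      calc h * h * v = h * (h * v * h⁻¹) * h⁻¹ * (h * h) := by group
        _ = (h * n1 * h⁻¹)⁻¹ * (h * v * h⁻¹) * (h * h) := by nth_rw 1 [hA]; group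
        _ = n1⁻¹ * (n1⁻¹ * v) * (h * h) := by rw [hfx, hA]
        _ = v * (h * h) := by rw [← mul_assoc n1⁻¹, hsq, one_mul]
    obtain ⟨m, hm⟩ : Odd C.index := by rwa [← Nat.not_even_iff_odd, even_iff_two_dvd]
    have h4 := C.pow_index_mem h
    rw [hm, pow_succ, pow_mul] at h4
    exact (C.mul_mem_cancel_left (C.pow_mem (by rwa [pow_two]) m)).1 h4
  rw [sum_mul_invariant (fun v : V => ψ v) (fun a b => hψ a a.2 b b.2) U
      (fun v : V => z.coeff ((v : H) * h)) hinv ?_,
    sum_eq_zero_of_exponent (p := p) (fun w : U => ψ ((w : V) : H))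
      (fun a b => hψ _ a.1.2 _ b.1.2) (fun u => Subtype.ext (hVp u)) h3, mul_zero]
  rw [← Nat.card_eq_fintype_card, hn, CharP.cast_eq_zero_iff k p]
  exact dvd_pow_self p hn0

omit hs hψ
variable (φ)

/-- The centraliser of the kernel is everything. -/
theorem eq_top_of_span (hφ : Function.Surjective φ) (hexp : ∀ v ∈ φ.ker, v ^ p = 1)
    (hc : ∀ x ∈ φ.ker, ∀ y ∈ φ.ker, x * y = y * x) {C : Subgroup H} [C.Normal]
    (hC : ∀ g, g ∈ C ↔ ∀ v ∈ φ.ker, g * v = v * g) (hind : ¬ p ∣ C.index)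
    {e : MonoidAlgebra k H} (hee : e * e = e) {E : MonoidAlgebra k Q}
    (hEs : E ∈ supp k (C.map φ)) (hEf : E ∈ fixedBy k (⊤ : Subgroup Q)) (hEE : E * E = E)
    (hloc : ∀ F ∈ ctr k (C.map φ), ∃ c : k, IsNilpotent ((F - c • 1) * E))
    (heE : mapG φ e * E = mapG φ e) (he0 : mapG φ e ≠ 0)
    (hspan : ∀ v ∈ φ.ker, (single v (1 : k) - 1) * e ∈ Submodule.span k
      {w | ∃ z y : MonoidAlgebra k H, IsClassElem z ∧ mapG φ z = 0 ∧ w = z * y}) :
    C = ⊤ := by
  classical
  by_contra hne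
  obtain ⟨h1, hh1⟩ : ∃ h1, h1 ∉ C := by
    by_contra h
    push Not at h
    exact hne (eq_top_iff.2 fun g _ => h g)
  obtain ⟨v0, hv0, hcv⟩ : ∃ v0 ∈ φ.ker, h1 * v0 ≠ v0 * h1 := by
    have := (hC h1).not.1 hh1
    push Not at this
    exact this
  set u0 := h1 * v0 * h1⁻¹ * v0⁻¹ with hu0
  have hu0V : u0 ∈ φ.ker := mul_mem (Subgroup.Normal.conj_mem inferInstance _ hv0 h1) (inv_mem hv0)
  have hu01 : u0 ≠ 1 := fun h => hcv (by
    rw [hu0, mul_inv_eq_one, mul_inv_eq_iff_eq_mul] at h; exact h)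
  -- a functional
  obtain ⟨ψ0, hψ0, hψu⟩ : ∃ ψ0 : H → k,
      (∀ v ∈ φ.ker, ∀ w ∈ φ.ker, ψ0 (v * w) = ψ0 v + ψ0 w) ∧ ψ0 u0 ≠ 0 := by
    letI : CommGroup φ.ker :=
      { (inferInstance : Group φ.ker) with mul_comm := fun a b => Subtype.ext (hc a a.2 b b.2) }
    obtain ⟨f, hf, hfu⟩ := exists_additive_ne_zero (k := k) (p := p) (u := (⟨u0, hu0V⟩ : φ.ker))
      (fun v => Subtype.ext (hexp v v.2)) (fun h => hu01 (congrArg Subtype.val h))
    refine ⟨fun h => if hh : h ∈ φ.ker then f ⟨h, hh⟩ else 0, fun v hv w hw => ?_, ?_⟩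
    · simp only [dif_pos hv, dif_pos hw, dif_pos (mul_mem hv hw), ← hf]
      rfl
    · simpa only [dif_pos hu0V] using hfu
  set ψ : H → k := fun v => ψ0 v - ψ0 (h1 * v * h1⁻¹) with hψdef
  have hψ : ∀ v ∈ φ.ker, ∀ w ∈ φ.ker, ψ (v * w) = ψ v + ψ w := fun v hv w hw => by
    simp only [ψ]
    rw [show h1 * (v * w) * h1⁻¹ = h1 * v * h1⁻¹ * (h1 * w * h1⁻¹) by group, hψ0 v hv w hw,
      hψ0 _ (Subgroup.Normal.conj_mem inferInstance _ hv h1) _
        (Subgroup.Normal.conj_mem inferInstance _ hw h1)]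
    ring
  have hψv0 : ψ v0 ≠ 0 := by
    have : ψ v0 = - ψ0 u0 := by
      have h := hψ0 u0 hu0V v0 hv0
      rw [show u0 * v0 = h1 * v0 * h1⁻¹ by rw [hu0]; group] at h
      simp only [ψ, h]
      ring
    rw [this, neg_ne_zero]
    exact hψu
  -- the conjugates of the functional add up to zero
  have hsumψ : ∀ v ∈ φ.ker, ∑ x : H ⧸ C, ψ (x.out * v * x.out⁻¹) = 0 := by
    intro v hv
    simp only [ψ, Finset.sum_sub_distrib, sub_eq_zero]
    refine (Fintype.sum_equiv (Equiv.mulLeft (QuotientGroup.mk h1 : H ⧸ C)) _ _ fun x => ?_).symm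
    show ψ0 (h1 * (x.out * v * x.out⁻¹) * h1⁻¹) = _
    congr 1
    set y := ((QuotientGroup.mk h1 : H ⧸ C) * x).out with hy
    have hc' : (h1 * x.out)⁻¹ * y ∈ C := by
      rw [← QuotientGroup.eq, hy, QuotientGroup.out_eq', QuotientGroup.mk_mul, QuotientGroup.out_eq']
    obtain ⟨c, hcC, hyc⟩ : ∃ c ∈ C, y = h1 * x.out * c := ⟨_, hc', by group⟩
    show _ = y * v * y⁻¹
    rw [hyc, show h1 * x.out * c * v * (h1 * x.out * c)⁻¹ =
      h1 * x.out * (c * v * c⁻¹) * (h1 * x.out)⁻¹ by group,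
      show c * v * c⁻¹ = v by rw [(hC c).1 hcC v hv, mul_inv_cancel_right]]
    group
  set s := Function.surjInv hφ
  have hs : ∀ q, φ (s q) = q := Function.surjInv_eq hφ
  set CQ := C.map φ with hCQ
  haveI : CQ.Normal := Subgroup.Normal.map inferInstance φ hφ
  -- the nilradical of the centre of the centraliser
  letI : CommRing (ctr k CQ) :=
    { (ctr k CQ).toRing with
      mul_comm := fun a b => Subtype.ext (commute_of_fixedBy_of_supp (mem_ctr.1 a.2).2
        (mem_ctr.1 b.2).1).eq }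
  set 𝒩 : Submodule k (MonoidAlgebra k Q) :=
    ((nilradical (ctr k CQ)).restrictScalars k).map (ctr k CQ).val.toLinearMap with h𝒩
  have hmem𝒩 : ∀ x, x ∈ 𝒩 ↔ x ∈ ctr k CQ ∧ IsNilpotent x := by
    intro x
    constructor
    · rintro ⟨y, hy, rfl⟩
      exact ⟨y.2, (mem_nilradical.1 hy).map (ctr k CQ).val⟩
    · rintro ⟨hx, m, hm⟩
      exact ⟨⟨x, hx⟩, mem_nilradical.2 ⟨m, Subtype.ext hm⟩, rfl⟩
  have hconj : ∀ (q : Q) (x : MonoidAlgebra k Q), x ∈ ctr k CQ → conjA q x ∈ ctr k CQ := by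
    intro q x hx
    refine mem_ctr.2 ⟨conjA_mem_supp (by simp [Subgroup.normalizer_eq_top]) (mem_ctr.1 hx).1,
      fun r hr => ?_⟩
    have hr' : q⁻¹ * r * q ∈ CQ := by
      simpa using Subgroup.Normal.conj_mem ‹CQ.Normal› r hr q⁻¹
    rw [← conjA_mul, show r * q = q * (q⁻¹ * r * q) by group, conjA_mul,
      (mem_ctr.1 hx).2 _ hr']
  -- the images
  have hEctr : E ∈ ctr k CQ := mem_ctr.2 ⟨hEs, fixedBy_anti le_top hEf⟩
  have hF : ∀ z, IsClassElem z → mapG φ z = 0 → twist φ s ψ z * E ∈ 𝒩 := by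
    intro z hzc hz
    have hzfix : ∀ g, conjA g z = z := fun g => MonoidAlgebra.ext (Finsupp.ext fun x => by
      rw [coeff_conjA]
      simpa using hzc g⁻¹ x)
    have hctr : twist φ s ψ z ∈ ctr k CQ := by
      refine mem_ctr.2 ⟨fun q hq => ?_, ?_⟩
      · obtain ⟨h, rfl⟩ := hφ q
        exact coeff_twist_eq_zero hs hψ hc hexp hC hind hzc hz fun h' => hq ⟨h, h', rfl⟩
      · rintro _ ⟨c, hcC, rfl⟩
        have h := twist_conjA hs hψ hz c
        rw [hzfix, twist_congr hs (ψ := fun x => ψ (c * x * c⁻¹)) (ψ' := ψ) fun v hv => by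
          rw [(hC c).1 hcC v hv, mul_inv_cancel_right]] at h
        exact h.symm
    obtain ⟨c, hcn⟩ := hloc _ hctr
    have hconjF : ∀ x : H ⧸ C, conjA (φ x.out)⁻¹ ((twist φ s ψ z - c • 1) * E) =
        (twist φ s (fun v => ψ (x.out * v * x.out⁻¹)) z - c • 1) * E := by
      intro x
      have h := twist_conjA hs hψ hz x.out
      rw [hzfix] at h
      rw [map_mul, map_sub, map_smul, map_one, hEf _ (Subgroup.mem_top _), h, ← conjA_mul,
        inv_mul_cancel, conjA_one]
    have hmemall : ∑ x : H ⧸ C,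
        (twist φ s (fun v => ψ (x.out * v * x.out⁻¹)) z - c • 1) * E ∈ 𝒩 := by
      refine Submodule.sum_mem _ fun x _ => ?_
      rw [← hconjF x, hmem𝒩]
      exact ⟨hconj _ _ (mul_mem (sub_mem hctr ((ctr k CQ).smul_mem (one_mem _) c)) hEctr),
        hcn.map _⟩
    rw [← Finset.sum_mul, Finset.sum_sub_distrib, ← twist_sum hs,
      twist_congr hs (ψ' := fun _ => (0 : k)) (fun v hv => hsumψ v hv),
      show twist φ s (fun _ => (0 : k)) z = 0 by simp [twist_apply], zero_sub, neg_mul,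
      Finset.sum_const, Finset.card_univ, ← Nat.cast_smul_eq_nsmul k, smul_smul, smul_mul_assoc,
      one_mul, Submodule.neg_mem_iff] at hmemall
    have hidx : (Fintype.card (H ⧸ C) : k) ≠ 0 := by
      rw [Ne, CharP.cast_eq_zero_iff k p, ← Nat.card_eq_fintype_card, ← Subgroup.index_eq_card]
      exact hind
    have hc0 : c = 0 := by
      by_contra hc0
      have hEn : E ∈ 𝒩 := by
        have h := 𝒩.smul_mem ((Fintype.card (H ⧸ C) : k) * c)⁻¹ hmemall
        rwa [smul_smul, inv_mul_cancel₀ (mul_ne_zero hidx hc0), one_smul] at h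
      obtain ⟨m, hm⟩ := ((hmem𝒩 E).1 hEn).2
      have hE0 : E = 0 := IsIdempotentElem.eq_zero_of_isNilpotent hEE ⟨m, hm⟩
      exact he0 (by rw [← heE, hE0, mul_zero])
    rw [hmem𝒩]
    exact ⟨mul_mem hctr hEctr, by simpa [hc0] using hcn⟩
  -- the ideal generated by the nilradical is nilpotent
  obtain ⟨m, hm⟩ : IsNilpotent (nilradical (ctr k CQ)) := by
    haveI : FiniteDimensional k (MonoidAlgebra k Q) :=
      Module.Finite.of_basis (MonoidAlgebra.basis Q k)
    haveI : IsNoetherianRing (ctr k CQ) := IsNoetherianRing.of_finite k _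
    exact IsNoetherianRing.isNilpotent_nilradical _
  set X : Submodule k (MonoidAlgebra k Q) := 𝒩 * ⊤ with hX
  have hswap : ⊤ * 𝒩 ≤ X := by
    rw [Submodule.mul_le]
    intro y hy x hx
    clear hy
    induction y using MonoidAlgebra.induction_linear with
    | zero => simp
    | add a b ha hb => rw [add_mul]; exact add_mem ha hb
    | single q r =>
      have h : single q r * x = conjA q x * single q r := by
        refine MonoidAlgebra.ext (Finsupp.ext fun g => ?_)
        rw [coeff_single_mul_apply, coeff_mul_single_apply, coeff_conjA, mul_comm]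
        congr 2
        group
      rw [h]
      refine Submodule.mul_mem_mul ?_ Submodule.mem_top
      rw [hmem𝒩] at hx ⊢
      exact ⟨hconj q x hx.1, hx.2.map _⟩
  have hpow : ∀ j, X ^ (j + 1) ≤ 𝒩 ^ (j + 1) * ⊤ := by
    intro j
    induction j with
    | zero => simp [hX]
    | succ j ih =>
      calc X ^ (j + 1 + 1) ≤ 𝒩 ^ (j + 1) * ⊤ * (𝒩 * ⊤) := by
            rw [pow_succ]; exact mul_le_mul' ih le_rfl
        _ = 𝒩 ^ (j + 1) * (⊤ * 𝒩) * ⊤ := by simp only [mul_assoc]
        _ ≤ 𝒩 ^ (j + 1) * (𝒩 * ⊤) * ⊤ := mul_le_mul' (mul_le_mul' le_rfl hswap) le_rfl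
        _ = 𝒩 ^ (j + 1 + 1) * (⊤ * ⊤) := by rw [pow_succ 𝒩 (j + 1)]; simp only [mul_assoc]
        _ ≤ _ := mul_le_mul' le_rfl le_top
  have h𝒩pow : ∀ j : ℕ, 𝒩 ^ (j + 1) ≤
      ((nilradical (ctr k CQ) ^ (j + 1)).restrictScalars k).map (ctr k CQ).val.toLinearMap := by
    intro j
    induction j with
    | zero => simp [h𝒩]
    | succ j ih =>
      rw [pow_succ 𝒩]
      refine (mul_le_mul' ih le_rfl).trans (Submodule.mul_le.2 ?_)
      rintro _ ⟨a, ha, rfl⟩ _ ⟨b, hb, rfl⟩
      refine ⟨a * b, ?_, map_mul (ctr k CQ).val a b⟩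
      show a * b ∈ nilradical (ctr k CQ) ^ (j + 1 + 1)
      rw [pow_succ]
      exact Ideal.mul_mem_mul ha hb
  have hX0 : X ^ (m + 1) = ⊥ := by
    refine le_bot_iff.1 ((hpow m).trans ?_)
    refine (mul_le_mul' (h𝒩pow m) le_rfl).trans ?_
    rw [pow_succ, hm, zero_mul]
    simp
  -- conclusion
  have hmem : ∀ w ∈ Submodule.span k
      {w | ∃ z y : MonoidAlgebra k H, IsClassElem z ∧ mapG φ z = 0 ∧ w = z * y},
      twist φ s ψ w * E ∈ X := by
    intro w hw
    induction hw using Submodule.span_induction with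
    | mem w hw =>
      obtain ⟨z, y, hzc, hz, rfl⟩ := hw
      rw [twist_mul hs hψ hz, mul_assoc,
        (commute_of_fixedBy_of_supp hEf (fun g hg => absurd (Subgroup.mem_top g) hg)).symm.eq,
        ← mul_assoc]
      exact Submodule.mul_mem_mul (hF z hzc hz) Submodule.mem_top
    | zero => simp
    | add a b _ _ ha hb => rw [map_add, add_mul]; exact add_mem ha hb
    | smul r a _ ha => rw [map_smul, smul_mul_assoc]; exact X.smul_mem r ha
  have hfin := hmem _ (hspan v0 hv0)
  rw [twist_sub_one_mul hs hψ hv0, smul_mul_assoc, heE] at hfin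
  have hg := X.smul_mem (ψ v0)⁻¹ hfin
  rw [smul_smul, inv_mul_cancel₀ hψv0, one_smul] at hg
  have hgm := Submodule.pow_mem_pow X hg (m + 1)
  rw [hX0, Submodule.mem_bot] at hgm
  have hpow1 : ∀ j, mapG φ e ^ (j + 1) = mapG φ e := by
    intro j
    induction j with
    | zero => simp
    | succ j ih => rw [pow_succ, ih, ← map_mul, hee]
  rw [hpow1] at hgm
  exact he0 hgm

end CfsgLib.EqualDegree
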