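import Cfsg.Agent.Lib.EqualDegree.NormalDefect
import Cfsg.Agent.Lib.CharDegreesTheory.BlockStabilizer
import Cfsg.Agent.Lib.BrauerPairs.TransportPairs
import Cfsg.Agent.Lib.BrauerPairs.CoverBridge

/-!
# A block with normal defect group and one height zero degree is nilpotent
-/

set_option autoImplicit false
set_option linter.unusedSectionVars false
set_option linter.style.haveILetI false

noncomputable section

namespace CfsgLib.EqualDegree

open Cfsg CfsgLib.Blocks MonoidAlgebra CfsgLib.BrauerPairs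

variable {p : ℕ} [Fact p.Prime] {M : Ideal AlgInt} [M.IsPrime]

section Pairs

variable {k : Type*} [Field k] [CharP k p] {G : Type*} [Group G] [Finite G]

/-- The block of the centraliser of a normal `p`-subgroup meets the blocks of the pairs below. -/
theorem mul_ne_zero_of_pairLE {D : Subgroup G} [D.Normal] {e : MonoidAlgebra k G}
    (he : IsPair p (⊤ : Subgroup G) D e) {Q : Subgroup G} {f : MonoidAlgebra k G}
    (h : PairLE p (⊤ : Subgroup G) Q f D e) : f * e ≠ 0 := by
  suffices ∀ x : Subgroup G × MonoidAlgebra k G,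
      Relation.ReflTransGen (NormalRel p (⊤ : Subgroup G)) x (D, e) → x.2 * e ≠ 0 from this _ h
  intro x hx
  induction hx using Relation.ReflTransGen.head_induction_on with
  | refl => rw [he.2.2.mul_self]; exact he.2.2.ne_zero
  | @head a c hac hcd ih =>
    have hRD : c.1 ≤ D := PairLE.le (p := p) (K := (⊤ : Subgroup G)) (f := c.2) (e := e) hcd
    obtain ⟨-, hc, -, -, hafix, hbr⟩ := hac
    have hes : e ∈ supp k (Subgroup.centralizer (c.1 : Set G)) :=
      supp_mono (Subgroup.centralizer_le hRD) he.supp_cen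
    have hcomm : Commute c.2 e := by
      have h1 := (mem_ctr.1 hc.2.2.mem).2
      rw [cenIn_top] at h1
      exact commute_of_fixedBy_of_supp h1 hes
    intro h0
    apply ih
    have h2 : brau c.1 (a.2 * e) * c.2 = 0 := by rw [h0, map_zero, zero_mul]
    rw [trunc_centralizer_mul hc.1 hafix (fixedBy_anti hRD he.fixed), trunc_eq_self hes,
      mul_assoc, ← hcomm.eq, ← mul_assoc, hbr] at h2
    exact h2

/-- Two blocks of a normal subgroup under one block are conjugate. -/
theorem exists_conjA_eq {N C : Subgroup G} [N.Normal] (hNC : N ≤ C) {f e e' : MonoidAlgebra k G}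
    (hf : IsBlockIdem C f) (he : IsBlockIdem N e) (he' : IsBlockIdem N e') (h : f * e ≠ 0)
    (h' : f * e' ≠ 0) : ∃ y ∈ C, conjA y e' = e := by
  classical
  haveI := Fintype.ofFinite C
  set O := Finset.univ.image fun y : C => conjA (y : G) e with hO
  have hblk : ∀ x ∈ O, IsBlockIdem N x := fun x hx => by
    obtain ⟨y, -, rfl⟩ := Finset.mem_image.1 hx
    exact he.conj (by rw [Subgroup.normalizer_eq_top]; trivial)
  set s := ∑ x ∈ O, x with hs
  have hes : e * s = e := by
    have heO : e ∈ O := Finset.mem_image.2 ⟨1, Finset.mem_univ _, by simp⟩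
    rw [hs, Finset.mul_sum, Finset.sum_eq_single_of_mem e heO
      fun x hx hne => he.mul_eq_zero_of_ne (hblk x hx) (Ne.symm hne)]
    exact he.mul_self
  have hss : s * s = s := by
    conv_lhs => arg 1; rw [hs]
    rw [Finset.sum_mul]
    refine Finset.sum_congr rfl fun x hx => ?_
    rw [hs, Finset.mul_sum, Finset.sum_eq_single_of_mem x hx
      fun y hy hne => (hblk x hx).mul_eq_zero_of_ne (hblk y hy) (Ne.symm hne)]
    exact (hblk x hx).mul_self
  have hsc : s ∈ ctr k C := by
    refine mem_ctr.2 ⟨sum_mem fun x hx => supp_mono hNC (mem_ctr.1 (hblk x hx).mem).1,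
      fun c hc => ?_⟩
    rw [hs, map_sum]
    refine Finset.sum_nbij' (fun x => conjA c x) (fun x => conjA c⁻¹ x) ?_ ?_ ?_ ?_ (fun _ _ => rfl)
    · intro x hx
      obtain ⟨y, -, rfl⟩ := Finset.mem_image.1 hx
      exact Finset.mem_image.2 ⟨⟨c, hc⟩ * y, Finset.mem_univ _, by rw [← conjA_mul]; rfl⟩
    · intro x hx
      obtain ⟨y, -, rfl⟩ := Finset.mem_image.1 hx
      exact Finset.mem_image.2 ⟨⟨c, hc⟩⁻¹ * y, Finset.mem_univ _, by rw [← conjA_mul]; rfl⟩
    · exact fun x _ => by simp
    · exact fun x _ => by simp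
  by_contra hne
  push Not at hne
  have he's : e' * s = 0 := by
    rw [hs, Finset.mul_sum]
    refine Finset.sum_eq_zero fun x hx => he'.mul_eq_zero_of_ne (hblk x hx) ?_
    rintro rfl
    obtain ⟨y, -, hy⟩ := Finset.mem_image.1 hx
    refine hne _ (inv_mem y.2) ?_
    rw [← hy, conjA_inv_conjA]
  have hcome : ∀ z, IsBlockIdem N z → Commute s z := fun z hz =>
    commute_of_fixedBy_of_supp (H := N) (fixedBy_anti hNC (mem_ctr.1 hsc).2)
      (mem_ctr.1 hz.mem).1
  rcases hf.2.2.2 s hsc hss with h0 | h0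
  · exact h (by rw [← hes, ← (hcome e he).eq, ← mul_assoc, h0, zero_mul])
  · exact h' (by rw [← h0, mul_assoc, (hcome e' he').eq, he's, mul_zero])

end Pairs

variable {G : Type*} [Group G] [Fintype G]

set_option maxHeartbeats 1000000 in
/-- One height zero degree makes a block with normal defect group nilpotent. -/
theorem isNilp_of_degrees (hM : IsPModular p M) {B : Set (IrrCharacter G)} (hB : IsPBlock M B)
    {D : Subgroup G} [D.Normal] (hD : IsDefectGroup p M B D) {d : ℕ}
    (hdeg : ∀ χ ∈ B, blockHeight p B (χ : G → ℂ) = 0 → charDegree (χ : G → ℂ) = d) :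
    IsNilp p (⊤ : Subgroup G) (redElem M (blockCoeff B)) := by
  classical
  haveI : M.IsMaximal := hM.2.1
  haveI := charP_res hM
  haveI := isAlgClosed_res (M := M)
  have hp : p.Prime := Fact.out
  have hbb := isBlockIdem_redElem_blockCoeff (M := M) hB
  obtain ⟨e, hmax⟩ := exists_isMaxPair_of_isDefectIn hbb ((isDefectGroup_iff hM hB).1 hD)
  have hpair := hmax.1.1
  have hblk0 := hpair.2.2
  rw [cenIn_top] at hblk0
  set C0 := Subgroup.centralizer (D : Set G) with hC0
  obtain ⟨be, hbe, hbee⟩ := exists_isPBlock_subIdem hblk0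
  haveI : Fintype C0 := Fintype.ofFinite _
  set T := stabA e with hTdef
  haveI : Fintype T := Fintype.ofFinite _
  have hC0T : C0 ≤ T := le_stabA_iff.2 (mem_ctr.1 hblk0.mem).2
  have hDT : D ≤ T := le_stabA_iff.2 hpair.fixed
  have hNg : ∀ x : G, C0 = cj x C0 := fun x => (cj_of_mem_normalizer (by
    rw [Subgroup.normalizer_eq_top]; exact Subgroup.mem_top x)).symm
  have himg : ∀ g : G, ∀ η : IrrCharacter C0,
      compIrr (cjEquiv g (hNg g)) η = BlockLocal.conjIrr C0 g η := fun g η => by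
    refine Subtype.ext (funext fun n => ?_)
    rw [compIrr_apply, BlockLocal.conjIrr_apply]
    refine congrArg _ (Subtype.ext ?_)
    rw [coe_cjEquiv, MulAut.conjNormal_apply, inv_inv]
  have hT : ∀ g : G, g ∈ T ↔ ∀ θ ∈ be, BlockLocal.conjIrr C0 g θ ∈ be := by
    intro g
    rw [hTdef, mem_stabA, ← hbee, ← subIdem_image (hNg g)]
    constructor
    · intro hg θ hθ
      rw [← himg]
      have hmem : compIrr (cjEquiv g (hNg g)) θ ∈ compIrr (cjEquiv g (hNg g)) '' be :=
        ⟨θ, hθ, rfl⟩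
      rwa [subIdem_injective (isPBlock_image_compIrr _ hbe) hbe hg] at hmem
    · intro hg
      congr 1
      obtain ⟨θ, hθ⟩ := isPBlock_nonempty hbe
      refine isPBlock_eq_of_mem (isPBlock_image_compIrr _ hbe) hbe ⟨θ, hθ, rfl⟩ ?_
      rw [himg]
      exact hg θ hθ
  -- the block of the stabiliser
  have hbe0 : redElem M (blockCoeff B) * e ≠ 0 := fun h0 => by
    apply hpair.2.2.ne_zero
    rw [← hmax.1.2]
    conv_lhs => arg 2; rw [← trunc_eq_self hpair.supp_cen]
    rw [← trunc_centralizer_mul hpair.1 (hbb.fixed_of_le le_top) hpair.fixed, h0, map_zero]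
  obtain ⟨χ0, hχ0, θ0, hθ0, hne0⟩ := (covers_iff (N := C0) hB hbe).2 (by rwa [hbee])
  obtain ⟨φ0, hφ0, hχφ⟩ := CharDegreesTheory.exists_indFun_eq hbe hT hC0T χ0 hθ0 hne0
  set B' := blockOf M (φ0 : T → ℂ) with hB'def
  have hB' : IsPBlock M B' := isPBlock_blockOf φ0
  obtain ⟨B1, hind, -, hmem1⟩ := CharDegreesTheory.exists_induced_block hbe hT hC0T hB'
    ⟨φ0, mem_blockOf_self φ0, hφ0⟩
  have hB1 : B1 = B := isPBlock_eq_of_mem hind.2.1 hB
    (CharDegreesTheory.induced_mem hind (mem_blockOf_self φ0) hχφ) hχ0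
  subst hB1
  have hcoef := CharDegreesTheory.blockCoeff_eq_indFun hbe hT hC0T hB'
    ⟨φ0, mem_blockOf_self φ0, hφ0⟩ hmem1
  obtain ⟨D', hD'⟩ := Blocks.exists_isDefectGroup hM hB'
  have hDmap := CharDegreesTheory.isDefectGroup_map_of_induced hM hbe hT hC0T hB'
    ⟨φ0, mem_blockOf_self φ0, hφ0⟩ hB hcoef hD'
  have hD'eq : D'.map T.subtype = D := by
    obtain ⟨a, ha⟩ := isDefectGroup_conj_exists hM hB hD hDmap
    rw [← ha]
    exact cj_of_mem_normalizer (by rw [Subgroup.normalizer_eq_top]; exact Subgroup.mem_top a)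
  haveI : D'.Normal := ⟨fun x hx t => by
    have h1 : ((x : T) : G) ∈ D := hD'eq ▸ ⟨x, hx, rfl⟩
    have h2 := Subgroup.Normal.conj_mem ‹D.Normal› _ h1 (t : G)
    rw [← hD'eq] at h2
    obtain ⟨y, hy, hyx⟩ := h2
    have : y = t * x * t⁻¹ := Subtype.ext hyx
    exact this ▸ hy⟩
  -- degrees in the stabiliser
  have hdeg' : ∀ ψ ∈ B', blockHeight p B' (ψ : T → ℂ) = 0 →
      charDegree (ψ : T → ℂ) = d / T.index := by
    intro ψ hψ h0
    obtain ⟨χ, hχ, -, -⟩ := CharDegreesTheory.exists_induced_over hbe hT hC0T ψ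
      (CharDegreesTheory.overBlock_of_mem hbe hC0T hB' (mem_blockOf_self φ0) hφ0 hψ)
    have hχB := (hmem1 χ).2 ⟨ψ, hψ, hχ⟩
    have hχdeg : charDegree (χ : G → ℂ) = T.index * charDegree (ψ : T → ℂ) := by
      have h := congrFun hχ 1
      rw [Frobenius.indFun_one, ← charDegree_cast, ← charDegree_cast] at h
      exact_mod_cast h
    have hidx0 : T.index ≠ 0 := Subgroup.index_ne_zero_of_finite
    have hh : blockHeight p B1 (χ : G → ℂ) = 0 := by
      have e1 := BrauerCharacters.defect_add_degree (p := p) hχB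
      have e2 := BrauerCharacters.defect_add_degree (p := p) hψ
      have e3 : blockDefect p B1 = blockDefect p B' := by
        refine Nat.pow_right_injective hp.two_le ?_
        show p ^ blockDefect p B1 = p ^ blockDefect p B'
        rw [← card_isDefectGroup hM hB hD, ← card_isDefectGroup hM hB' hD', ← hD'eq,
          Subgroup.card_map_of_injective T.subtype_injective]
      rw [hχdeg, Nat.factorization_mul hidx0 (charDegree_ne_zero' ψ), Finsupp.add_apply,
        ← T.index_mul_card, Nat.factorization_mul hidx0 Nat.card_pos.ne', Finsupp.add_apply,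
        e3] at e1
      omega
    rw [← hdeg χ hχB hh, hχdeg, Nat.mul_div_cancel_left _ (Nat.pos_of_ne_zero hidx0)]
  -- the pair in the stabiliser
  have hbb' := isBlockIdem_redElem_blockCoeff (M := M) hB'
  obtain ⟨e', hmax'⟩ := exists_isMaxPair_of_isDefectIn hbb' ((isDefectGroup_iff hM hB').1 hD')
  have he'e : mapG T.subtype e' = e := by
    have hblk' : IsBlockIdem C0 (mapG T.subtype e') := by
      have h := (isBlockIdem_mapG_iff T.subtype_injective).2 hmax'.1.1.2.2
      rwa [map_cenIn T.subtype_injective, map_top_subtype, hD'eq,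
        show cenIn T D = C0 from inf_eq_right.2 hC0T] at h
    have hf' : redElem M (blockCoeff B') * e' ≠ 0 := fun h0 => by
      apply hmax'.1.1.2.2.ne_zero
      rw [← hmax'.1.2]
      conv_lhs => arg 2; rw [← trunc_eq_self hmax'.1.1.supp_cen]
      rw [← trunc_centralizer_mul hmax'.1.1.1 (hbb'.fixed_of_le le_top) hmax'.1.1.fixed, h0,
        map_zero]
    have hfT := isBlockIdem_subIdem hB'
    have hfe : subIdem M T B' * e = subIdem M T B' := by
      refine (hfT.2.2.2 e (mem_ctr.2 ⟨supp_mono hC0T (mem_ctr.1 hblk0.mem).1, fun t ht => ht⟩)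
        hblk0.mul_self).resolve_left ?_
      rw [← hbee]
      exact (covers_sub_iff hC0T (fun x _ => by
        rw [Subgroup.normalizer_eq_top]; exact Subgroup.mem_top x) hB' hbe).1
        ⟨φ0, mem_blockOf_self φ0, hφ0⟩
    symm
    refine hblk0.eq_of_mul_ne_zero hblk' fun h0 => hf' ?_
    apply mapG_injective T.subtype_injective
    rw [map_mul, map_zero, ← redElem_subgroupBlockCoeff]
    show subIdem M T B' * _ = 0
    rw [← hfe, mul_assoc, h0, mul_zero]
  have hst' : ∀ t : T, conjA t e' = e' := fun t => by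
    apply mapG_injective T.subtype_injective
    rw [mapG_conjA T.subtype_injective, he'e]
    exact t.2
  have hTle : T ≤ D ⊔ C0 := by
    intro x hx
    have h := top_le_sup_centralizer hM hB' hD' hmax' hst' hdeg' (Subgroup.mem_top (⟨x, hx⟩ : T))
    obtain ⟨u, hu, c, hc, huc⟩ := Subgroup.mem_sup_of_normal_left.1 h
    rw [show x = (u : G) * c from (congrArg Subtype.val huc).symm]
    refine Subgroup.mul_mem_sup (hD'eq ▸ ⟨u, hu, rfl⟩) ?_
    rw [hC0, Subgroup.mem_centralizer_iff]
    intro y hy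
    rw [SetLike.mem_coe, ← hD'eq] at hy
    obtain ⟨y', hy', rfl⟩ := hy
    exact congrArg Subtype.val (Subgroup.mem_centralizer_iff.1 hc y' hy')
  -- nilpotency
  intro Q f hQf x hx hreg
  obtain ⟨a, -, hle⟩ := hQf.exists_conj_le hbb hmax
  have hx' : a * x * a⁻¹ ∈ pairStab (⊤ : Subgroup G) (cj a Q) (conjA a f) := by
    rw [← cj_pairStab (Subgroup.mem_top a), mem_cj]
    simpa [mul_assoc] using hx
  have hreg' : ¬ p ∣ orderOf (a * x * a⁻¹) := by
    rwa [show orderOf (a * x * a⁻¹) = orderOf x from MulEquiv.orderOf_eq (MulAut.conj a) x]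
  suffices hmain : a * x * a⁻¹ ∈ Subgroup.centralizer (cj a Q : Set G) by
    rw [cj_centralizer, mem_cj] at hmain
    simpa [mul_assoc] using hmain
  generalize a * x * a⁻¹ = z at hx' hreg' ⊢
  generalize cj a Q = R, conjA a f = g at hle hx'
  have hRD : R ≤ D := hle.le
  have hgblk : IsBlockIdem (Subgroup.centralizer (R : Set G)) g := by
    have h := (hle.isPair_left hpair).2.2
    rwa [cenIn_top] at h
  obtain ⟨-, hzN, hzg⟩ := mem_pairStab.1 hx'
  have hge := mul_ne_zero_of_pairLE hpair hle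
  have hge' : g * conjA z e ≠ 0 := by
    rw [← hzg, ← map_mul]
    exact fun h => hge ((conjA z).injective (h.trans (map_zero _).symm))
  obtain ⟨y, hy, hye⟩ := exists_conjA_eq (Subgroup.centralizer_le hRD) hgblk hblk0
    (hblk0.conj (by rw [Subgroup.normalizer_eq_top]; exact Subgroup.mem_top z)) hge hge'
  have hyzT : y * z ∈ T := by rw [hTdef, mem_stabA, conjA_mul]; exact hye
  obtain ⟨u, hu, c, hc, huc⟩ := Subgroup.mem_sup_of_normal_left.1 (hTle hyzT)
  set CR := Subgroup.centralizer (R : Set G) with hCR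
  set N := Subgroup.normalizer (R : Set G) with hN
  have hCRN : CR ≤ N := Subgroup.centralizer_le_normalizer _
  haveI : (CR.subgroupOf N).Normal :=
    Subgroup.normal_subgroupOf_of_le_normalizer (normalizer_le_normalizer_cen R)
  have hcR : c ∈ CR := Subgroup.centralizer_le hRD hc
  have huN : u ∈ N := by
    have h1 : u * c ∈ N := huc ▸ N.mul_mem (hCRN hy) hzN
    exact (N.mul_mem_cancel_right (hCRN hcR)).1 h1
  obtain ⟨j, hj⟩ := hpair.1 ⟨u, hu⟩
  have hj' : u ^ p ^ j = 1 := congrArg Subtype.val hj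
  let q := QuotientGroup.mk' (CR.subgroupOf N)
  have hq1 : ∀ w : N, (w : G) ∈ CR → q w = 1 := fun w hw => (QuotientGroup.eq_one_iff w).2 hw
  have hzq : q ⟨z, hzN⟩ = q ⟨u, huN⟩ := by
    have h : (⟨y, hCRN hy⟩ : N) * ⟨z, hzN⟩ = ⟨u, huN⟩ * ⟨c, hCRN hcR⟩ := Subtype.ext huc.symm
    have h' := congrArg q h
    rwa [map_mul, map_mul, hq1 ⟨y, hCRN hy⟩ hy, hq1 ⟨c, hCRN hcR⟩ hcR, one_mul, mul_one] at h'
  have h1 : q ⟨z, hzN⟩ ^ p ^ j = 1 := by
    rw [hzq, ← map_pow, show (⟨u, huN⟩ : N) ^ p ^ j = 1 from Subtype.ext hj', map_one]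
  have h2 : q ⟨z, hzN⟩ ^ orderOf z = 1 := by
    rw [← map_pow, show (⟨z, hzN⟩ : N) ^ orderOf z = 1 from Subtype.ext (pow_orderOf_eq_one z),
      map_one]
  have hz1 : q ⟨z, hzN⟩ = 1 := by
    have h := pow_gcd_eq_one.2 ⟨h1, h2⟩
    rwa [Nat.Coprime.gcd_eq_one (Nat.Coprime.pow_left _ (hp.coprime_iff_not_dvd.2 hreg')),
      pow_one] at h
  exact (QuotientGroup.eq_one_iff (N := CR.subgroupOf N) _).1 hz1

end CfsgLib.EqualDegree
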