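import Cfsg.Agent.Lib.EqualDegree.Block
import Cfsg.Agent.Lib.EqualDegree.Functional
import Cfsg.Agent.Lib.EqualDegree.CentralQuotient
import Cfsg.Agent.Lib.BrauerPairs.Nilpotent
import Cfsg.Agent.Lib.BrauerPairs.BridgePairs
import Cfsg.Agent.Lib.BrauerPairs.BridgeDefect
import Cfsg.Agent.Lib.BrauerCharacters.BlockEntries
import Cfsg.Agent.Lib.PGroups.Frattini
import Cfsg.Agent.Lib.CoprimeAction.Basic
import Cfsg.Agent.Lib.CharTheory.Ito

/-!
# A stable block of the centraliser of a normal defect group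

If all height zero characters of a block with normal defect group `D` have one degree and the
block of the centraliser is stable, the group is `D C(D)`.
-/

set_option autoImplicit false
set_option linter.unusedSectionVars false
set_option linter.style.haveILetI false

noncomputable section

namespace CfsgLib.EqualDegree

open Cfsg CfsgLib.Blocks MonoidAlgebra CfsgLib.BrauerPairs CfsgLib.Jordan.CyclicDefect

variable {p : ℕ} [Fact p.Prime] {M : Ideal AlgInt} [M.IsPrime] {G : Type*} [Group G] [Fintype G]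

/-- A pair on a normal subgroup which is fixed by the group is the block. -/
theorem eq_of_pairOf_of_fixed (hM : IsPModular p M) {b : MonoidAlgebra (Res M) G}
    (hb : IsBlockIdem (⊤ : Subgroup G) b) {D : Subgroup G} [D.Normal]
    {e : MonoidAlgebra (Res M) G} (he : PairOf p (⊤ : Subgroup G) b D e)
    (hst : ∀ x, conjA x e = e) : b = e := by
  haveI := charP_res hM
  have hpst : pairStab (⊤ : Subgroup G) D e = ⊤ := eq_top_iff.2 fun x _ => mem_pairStab.2
    ⟨trivial, by rw [Subgroup.normalizer_eq_top]; trivial, hst x⟩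
  refine hb.eq_of_mul_ne_zero (he.1.isBlockIdem_of_between le_top le_top hpst.ge) fun h0 => ?_
  apply he.1.2.2.ne_zero
  rw [← he.2]
  conv_lhs => arg 2; rw [← trunc_eq_self he.1.supp_cen]
  rw [← trunc_centralizer_mul he.1.1 (hb.fixed_of_le le_top) he.1.fixed, h0, map_zero]

/-- Equal degrees in the stable case. -/
theorem top_le_sup_centralizer (hM : IsPModular p M) {B : Set (IrrCharacter G)}
    (hB : IsPBlock M B) {D : Subgroup G} [D.Normal] (hD : IsDefectGroup p M B D)
    {e : MonoidAlgebra (Res M) G}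
    (hmax : IsMaxPair p (⊤ : Subgroup G) (redElem M (blockCoeff B)) D e)
    (hst : ∀ x, conjA x e = e) {d : ℕ}
    (hdeg : ∀ χ ∈ B, blockHeight p B (χ : G → ℂ) = 0 → charDegree (χ : G → ℂ) = d) :
    (⊤ : Subgroup G) ≤ D ⊔ Subgroup.centralizer (D : Set G) := by
  classical
  haveI : M.IsMaximal := hM.2.1
  haveI := charP_res hM
  haveI := isAlgClosed_res (M := M)
  have hp : p.Prime := Fact.out
  have hbb := isBlockIdem_redElem_blockCoeff (M := M) hB
  have hpair := hmax.1.1
  have hDp : IsPGroup p D := hpair.1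
  have heb : redElem M (blockCoeff B) = e := eq_of_pairOf_of_fixed hM hbb hmax.1 hst
  set C0 := Subgroup.centralizer (D : Set G) with hC0
  have hidx : ¬ p ∣ (D ⊔ C0).index := by
    have h := hmax.not_dvd_relIndex hbb
    have hpst : pairStab (⊤ : Subgroup G) D e = ⊤ := eq_top_iff.2 fun x _ => mem_pairStab.2
      ⟨trivial, by rw [Subgroup.normalizer_eq_top]; trivial, hst x⟩
    rwa [cenIn_top, hpst, Subgroup.relIndex_top_right] at h
  set L := D ⊔ C0 with hL
  -- the quotients
  set F : Subgroup G := (frattini D).map D.subtype with hFdef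
  have hFD : F ≤ D := Subgroup.map_subtype_le _
  have hFp : IsPGroup p F := hDp.to_le hFD
  set π := QuotientGroup.mk' F with hπdef
  set φ : G ⧸ F →* G ⧸ D :=
    QuotientGroup.map F D (MonoidHom.id G) (by rwa [Subgroup.comap_id]) with hφdef
  haveI : Fintype (G ⧸ F) := Fintype.ofFinite _
  haveI : Fintype (G ⧸ D) := Fintype.ofFinite _
  have hπ : Function.Surjective π := QuotientGroup.mk'_surjective F
  have hφπ : ∀ g : G, φ (π g) = QuotientGroup.mk' D g := fun g => rfl
  have hφ : Function.Surjective φ := fun q => by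
    obtain ⟨g, rfl⟩ := QuotientGroup.mk'_surjective D q
    exact ⟨π g, hφπ g⟩
  have hkerφ : ∀ x, x ∈ φ.ker → ∃ g ∈ D, π g = x := fun x hx => by
    obtain ⟨g, rfl⟩ := hπ x
    rw [MonoidHom.mem_ker, hφπ, QuotientGroup.mk'_apply, QuotientGroup.eq_one_iff] at hx
    exact ⟨g, hx, rfl⟩
  have hπD : ∀ g ∈ D, π g ∈ φ.ker := fun g hg => by
    rw [MonoidHom.mem_ker, hφπ, QuotientGroup.mk'_apply, QuotientGroup.eq_one_iff]
    exact hg
  have hexp : ∀ v ∈ φ.ker, v ^ p = 1 := fun v hv => by
    obtain ⟨g, hg, rfl⟩ := hkerφ v hv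
    rw [← map_pow, hπdef, QuotientGroup.mk'_apply, QuotientGroup.eq_one_iff]
    exact ⟨_, PGroups.pow_mem_frattini hDp ⟨g, hg⟩, rfl⟩
  have hcomm : ∀ x ∈ φ.ker, ∀ y ∈ φ.ker, x * y = y * x := fun x hx y hy => by
    obtain ⟨a, ha, rfl⟩ := hkerφ x hx
    obtain ⟨c, hc, rfl⟩ := hkerφ y hy
    rw [← commutatorElement_eq_one_iff_mul_comm, ← map_commutatorElement, hπdef,
      QuotientGroup.mk'_apply, QuotientGroup.eq_one_iff]
    exact ⟨_, PGroups.commutatorElement_mem_frattini hDp ⟨a, ha⟩ ⟨c, hc⟩,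
      by simp [commutatorElement_def]⟩
  have hVp : IsPGroup p φ.ker := fun v => ⟨1, Subtype.ext (by rw [pow_one]; exact hexp v v.2)⟩
  -- the centraliser of the kernel
  set C := Subgroup.centralizer (φ.ker : Set (G ⧸ F)) with hCdef
  have hC : ∀ g, g ∈ C ↔ ∀ v ∈ φ.ker, g * v = v * g := fun g => by
    rw [hCdef, Subgroup.mem_centralizer_iff]
    exact ⟨fun h v hv => (h v hv).symm, fun h v hv => (h v hv).symm⟩
  have hLC : L.map π ≤ C := by
    rw [hL, Subgroup.map_sup, sup_le_iff]
    constructor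
    · rintro _ ⟨g, hg, rfl⟩
      exact (hC _).2 fun v hv => hcomm _ (hπD g hg) v hv
    · rintro _ ⟨g, hg, rfl⟩
      refine (hC _).2 fun v hv => ?_
      obtain ⟨u, hu, rfl⟩ := hkerφ v hv
      rw [← map_mul, ← map_mul, Subgroup.mem_centralizer_iff.1 hg u hu]
  have hind : ¬ p ∣ C.index := fun h => hidx
    ((h.trans (Subgroup.index_dvd_of_le hLC)).trans (Subgroup.index_map_dvd L hπ))
  have hCL : C ≤ L.map π := by
    have hK : C.comap π ≤ L := by
      have hLK : L ≤ C.comap π := Subgroup.map_le_iff_le_comap.1 hLC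
      refine le_of_regular_and_index (p := p) (C := C0) le_sup_right hLK ?_ (fun h => hidx
        (h.trans (Subgroup.relIndex_dvd_index_of_le hLK))) ?_
      · intro x _
        rw [Subgroup.normalizer_eq_top]
        exact Subgroup.mem_top x
      · intro x hx hreg
        refine CoprimeAction.le_centralizer_of_frattini (A := Subgroup.zpowers x) (K := D)
          (by intro y _; rw [Subgroup.normalizer_eq_top]; exact Subgroup.mem_top y) ?_ ?_
          (Subgroup.mem_zpowers x)
        · rw [Nat.card_zpowers]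
          obtain ⟨n, hn⟩ := IsPGroup.iff_card.1 (hDp.to_subgroup (frattini D))
          rw [hn]
          exact Nat.Coprime.pow_right _ ((hp.coprime_iff_not_dvd.2 hreg).symm)
        · intro a ha u hu
          have haK : a ∈ C.comap π := Subgroup.zpowers_le.2 hx ha
          have h1 := (hC _).1 (Subgroup.mem_comap.1 haK) _ (hπD u hu)
          have h2 : π (u⁻¹ * (a * u * a⁻¹)) = 1 := by
            simp only [map_mul, map_inv, h1]
            group
          rwa [hπdef, QuotientGroup.mk'_apply, QuotientGroup.eq_one_iff] at h2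
    intro x hx
    obtain ⟨g, rfl⟩ := hπ x
    exact ⟨g, hK hx, rfl⟩
  have hCQ : C.map φ = C0.map (QuotientGroup.mk' D) := by
    rw [le_antisymm hCL hLC, Subgroup.map_map,
      show φ.comp π = QuotientGroup.mk' D from MonoidHom.ext hφπ, hL, Subgroup.map_sup,
      QuotientGroup.map_mk'_self, bot_sup_eq]
  -- a block of the quotient under the block
  have hef : ∀ u, Commute (single u (1 : Res M)) e := fun u =>
    (commute_of_fixedBy_of_supp (H := (⊤ : Subgroup G)) (fun x _ => hst x)
      (fun x hx => absurd (Subgroup.mem_top x) hx)).symm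
  have hee : e * e = e := hpair.2.2.mul_self
  set ē := mapG π e with hedef
  have hē0 : ē ≠ 0 := CharDegreesTheory.mapG_ne_zero_of_idem hπ
    (hFp.of_equiv (MulEquiv.subgroupCongr (QuotientGroup.ker_mk' F).symm)) hee hpair.2.2.ne_zero
    fun u _ => hef u
  obtain ⟨b2, hb2, hne2⟩ := exists_isBlockIdem_mul_ne_zero (k := Res M) (⊤ : Subgroup (G ⧸ F)) hē0
  obtain ⟨B2, hB2, rfl⟩ := exists_isPBlock_of_isBlockIdem hb2
  have hēc : ē ∈ ctr (Res M) (⊤ : Subgroup (G ⧸ F)) :=
    CharDegreesTheory.mapG_mem_ctr_top hπ fun x _ => hst x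
  have hēē : ē * ē = ē := by rw [hedef, ← map_mul, hee]
  have hb2e : redElem M (blockCoeff B2) * ē = redElem M (blockCoeff B2) := by
    rw [(ctr_commute hēc hb2.mem).eq] at hne2
    exact (hb2.2.2.2 ē hēc hēē).resolve_left hne2
  have hin : ∀ ξ ∈ B2, (⟨fun g => (ξ : G ⧸ F → ℂ) (π g),
      CharTheory.isIrrCharacter_comp ξ.2 hπ⟩ : IrrCharacter G) ∈ B := by
    intro ξ hξ
    have hcoe : ((idemRes M B (memLocalRing_blockCoeff hB) : classAlg (Res M) G) :
        MonoidAlgebra (Res M) G) = e := by rw [← redElem_blockCoeff hB, heb]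
    rw [← omegaRes_redElem_eq_one_iff (M := M) hB,
      CharDegreesTheory.omegaRes_inflate hπ (χ := ξ) rfl,
      omegaRes_idem_eq_one_iff hB2 hξ (Subtype.ext (by
        show mapG π _ * mapG π _ = mapG π _
        rw [← map_mul, ← Subalgebra.coe_mul, idemRes_mul_self]))]
    apply Subtype.ext
    show mapG π _ * _ = _
    rw [hcoe, ← redElem_blockCoeff hB2, ← hedef, (ctr_commute hēc hb2.mem).eq]
    exact hb2e
  have hDcard : Nat.card D = p ^ blockDefect p B := card_isDefectGroup hM hB hD
  have hGp : (Nat.card G).factorization p =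
      (Nat.card (G ⧸ D)).factorization p + blockDefect p B := by
    rw [Subgroup.card_eq_card_quotient_mul_card_subgroup D,
      Nat.factorization_mul Nat.card_pos.ne' Nat.card_pos.ne', Finsupp.add_apply, hDcard,
      hp.factorization_pow, Finsupp.single_eq_same]
  have hdeg2 : ∀ ξ ∈ B2, charDegree (ξ : G ⧸ F → ℂ) = d ∧
      (charDegree (ξ : G ⧸ F → ℂ)).factorization p = (Nat.card (G ⧸ D)).factorization p := by
    intro ξ hξ
    set χ : IrrCharacter G := ⟨fun g => (ξ : G ⧸ F → ℂ) (π g),
      CharTheory.isIrrCharacter_comp ξ.2 hπ⟩ with hχ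
    have hχξ : charDegree (χ : G → ℂ) = charDegree (ξ : G ⧸ F → ℂ) := by
      simp [hχ, charDegree]
    obtain ⟨dd, hdd, hdvd⟩ := CharTheory.exists_degree_dvd_index_of_abelian ξ.2 φ.ker hcomm
    rw [Subgroup.index_ker, MonoidHom.range_eq_top.2 hφ, Subgroup.card_top] at hdvd
    have hdd' : charDegree (ξ : G ⧸ F → ℂ) = dd := by simp [charDegree, hdd]
    have hdd0 : dd ≠ 0 := hdd' ▸ charDegree_ne_zero' ξ
    have hle := (Nat.factorization_le_iff_dvd hdd0 Nat.card_pos.ne').2 hdvd p
    have hsum := BrauerCharacters.defect_add_degree (p := p) (hin ξ hξ)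
    rw [← hχ, hχξ, hdd', hGp] at hsum
    refine ⟨?_, by rw [hdd']; omega⟩
    rw [← hχξ]
    exact hdeg χ (hin ξ hξ) (by omega)
  obtain ⟨ξ0, hξ0⟩ := isPBlock_nonempty hB2
  have hfull : d.factorization p = (Nat.card (G ⧸ D)).factorization p := by
    rw [← (hdeg2 ξ0 hξ0).1]
    exact (hdeg2 ξ0 hξ0).2
  -- over a larger field
  obtain ⟨S⟩ := exists_above (M := M)
  haveI := S.charP hM
  have hE : ∀ x, mapG φ (mapG π x) = mapG (QuotientGroup.mk' D) (x : MonoidAlgebra (Res M) G) := by
    intro x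
    induction x using MonoidAlgebra.induction_linear with
    | zero => simp
    | add a b ha hb => simp only [map_add, ha, hb]
    | single g c => simp only [CharDegreesTheory.mapG_single_eq]; rfl
  set E := mapRingHom (G ⧸ D) S.κ (mapG φ ē) with hEdef
  have hEctr : mapG φ ē ∈ ctr (Res M) (⊤ : Subgroup (G ⧸ D)) :=
    CharDegreesTheory.mapG_mem_ctr_top hφ (mem_ctr.1 hēc).2
  have hblk0 : IsBlockIdem C0 e := by
    have h := hpair.2.2
    rwa [cenIn_top] at h
  have hC1 : C = ⊤ := by
    refine eq_top_of_span (E := E) φ hφ hexp hcomm hC hind (eK_mul_self S hB2) ?_ ?_ ?_ ?_ ?_ ?_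
      fun v hv => sub_one_mul_eK_mem_span S φ hM hB2 (fun χ hχ => (hdeg2 χ hχ).1) hfull hφ hVp
        hcomm hv
    · intro q hq
      rw [hEdef, coeff_mapRingHom, hedef, hE, coeff_eq_zero_of_supp (H := C0) q ?_ (by rwa [← hCQ]),
        map_zero]
      exact (mem_ctr.1 hblk0.mem).1
    · intro q _
      refine MonoidAlgebra.ext (Finsupp.ext fun x => ?_)
      have h1 := congrArg (fun w : MonoidAlgebra (Res M) (G ⧸ D) => w.coeff x)
        ((mem_ctr.1 hEctr).2 q trivial)
      rw [coeff_conjA] at h1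
      rw [coeff_conjA, hEdef, coeff_mapRingHom, coeff_mapRingHom, h1]
    · rw [hEdef, ← map_mul, ← map_mul, hēē]
    · intro Fz hFz
      rw [hEdef, hedef, hE]
      refine exists_scalar_image S hM (QuotientGroup.mk' D) ?_ ?_ hblk0 (hCQ ▸ hFz)
      · intro u hu _ c hc
        rw [QuotientGroup.ker_mk'] at hu
        exact (Subgroup.mem_centralizer_iff.1 hc u hu).symm
      · exact hDp.of_equiv (MulEquiv.subgroupCongr (QuotientGroup.ker_mk' D).symm)
    · rw [eK_eq_kappa, ← mapRingHom_mapG, hEdef, ← map_mul, ← map_mul, hb2e]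
    · refine CharDegreesTheory.mapG_ne_zero_of_idem hφ hVp (eK_mul_self S hB2) ?_
        fun u _ => (isClassElem_eK S hB2).commute _
      intro h0
      apply hb2.ne_zero
      refine MonoidAlgebra.ext (Finsupp.ext fun x => S.κ.injective ?_)
      rw [← coeff_mapRingHom, ← eK_eq_kappa S hB2, h0]
      simp
  intro g _
  have hg : π g ∈ L.map π := hCL (by rw [hC1]; trivial)
  obtain ⟨u, hu, hug⟩ := hg
  have h : u⁻¹ * g ∈ L := (hFD.trans le_sup_left) ((QuotientGroup.eq).1 hug)
  simpa using mul_mem hu h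
where
  coeff_eq_zero_of_supp {H : Subgroup G} {D : Subgroup G} [D.Normal]
      {x : MonoidAlgebra (Res M) G} (q : G ⧸ D) (hx : x ∈ supp (Res M) H)
      (hq : q ∉ H.map (QuotientGroup.mk' D)) : (mapG (QuotientGroup.mk' D) x).coeff q = 0 := by
    classical
    rw [CharDegreesTheory.coeff_mapG_eq_sum]
    refine Finset.sum_eq_zero fun g _ => ?_
    split_ifs with h
    · exact hx g fun hg => hq ⟨g, hg, h⟩
    · rfl

end CfsgLib.EqualDegree
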